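import Mathlib.Algebra.Ring.Basic
import Mathlib.Algebra.Group.Units.Basic
import Mathlib.Algebra.Group.Commute.Units
import Mathlib.Tactic.NoncommRing

/-!
The operator identity behind the generation of fixed points: conjugating
`P a - Q P a + Q = Q b - P Q b + P` by two commuting families of operators.
-/

set_option autoImplicit false

namespace Cfsg.Agent.Lib.FixedGen

variable {R : Type*} [Ring R]

theorem twist_sub {P Q a b T U ca cb : R} (h : P * a - Q * P * a + Q = Q * b - P * Q * b + P)
    (hTP : U * P = P * U) (hTQ : U * Q = Q * U) (hUT : U * T = 1)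
    (hca : U * a * T = ca * a) (hcb : U * b * T = cb * b) :
    (1 - Q) * P * (ca - 1) * a = (1 - P) * Q * (cb - 1) * b := by
  have h1 : ∀ X Y c : R, U * X = X * U → U * Y * T = c * Y → U * (X * Y) * T = X * (c * Y) := by
    intro X Y c hX hY
    rw [← mul_assoc U, hX, mul_assoc X U, mul_assoc X, hY]
  have hQT : U * Q * T = Q := by rw [hTQ, mul_assoc, hUT, mul_one]
  have hPT : U * P * T = P := by rw [hTP, mul_assoc, hUT, mul_one]
  have hQP : U * (Q * P) = Q * P * U := by rw [← mul_assoc, hTQ, mul_assoc, hTP, mul_assoc]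
  have hPQ : U * (P * Q) = P * Q * U := by rw [← mul_assoc, hTP, mul_assoc, hTQ, mul_assoc]
  have h2 := congrArg (fun z => U * z * T) h
  simp only [mul_add, add_mul, mul_sub, sub_mul, h1 P a ca hTP hca, h1 (Q * P) a ca hQP hca,
    h1 Q b cb hTQ hcb, h1 (P * Q) b cb hPQ hcb, hQT, hPT] at h2
  calc (1 - Q) * P * (ca - 1) * a
      = (P * (ca * a) - Q * P * (ca * a) + Q) - (P * a - Q * P * a + Q) := by noncomm_ring
    _ = (Q * (cb * b) - P * Q * (cb * b) + P) - (Q * b - P * Q * b + P) := by rw [h2, h]
    _ = (1 - P) * Q * (cb - 1) * b := by noncomm_ring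

/-- Second twist. -/
theorem twist_factor {L M a b T U ca cb : R} (h : L * a = M * b) (hL : U * L = L * U)
    (hM : U * M = M * U) (hcM : cb * M = M * cb) (hcL : cb * L = L * cb)
    (hca : U * a * T = ca * a) (hcb : U * b * T = cb * b) (ha : IsUnit a) :
    L * (ca - cb) = 0 := by
  have h2 := congrArg (fun z => U * z * T) h
  have e1 : U * (L * a) * T = L * ca * a := by
    rw [← mul_assoc U, hL, mul_assoc L U, mul_assoc L, hca, mul_assoc]
  have e2 : U * (M * b) * T = L * cb * a := by
    rw [← mul_assoc U, hM, mul_assoc M U, mul_assoc M, hcb, ← mul_assoc M, ← hcM, mul_assoc cb,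
      ← h, ← mul_assoc, hcL]
  rw [e1, e2] at h2
  exact ha.mul_left_eq_zero.mp (by rw [mul_sub, sub_mul, h2, sub_self])

end Cfsg.Agent.Lib.FixedGen
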