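import Cfsg.Agent.Lib.Coprime.Abelian
import Mathlib.GroupTheory.Solvable
import Mathlib.GroupTheory.QuotientGroup.Basic

/-!
Subgroups `cl A h` generated by the commutators of one element with a group of operators, and the
subgroup generated by their fixed points.
-/

set_option autoImplicit false

namespace Cfsg.Agent.Lib.FixedGen

open scoped Pointwise commutatorElement
open Subgroup

universe u

variable {G : Type u} [Group G]

/-- Generated by the `h⁻¹ a h a⁻¹` for `a ∈ A`. -/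
def cl (A : Subgroup G) (h : G) : Subgroup G :=
  closure {c | ∃ a ∈ A, c = h⁻¹ * a * h * a⁻¹}

theorem gen_mem_cl {A : Subgroup G} {h a : G} (ha : a ∈ A) : h⁻¹ * a * h * a⁻¹ ∈ cl A h :=
  subset_closure ⟨a, ha, rfl⟩

/-- Generated by the fixed points in all `cl A h` for `h ∈ X`. -/
def gen (A X : Subgroup G) : Subgroup G :=
  ⨆ h ∈ X, cl A h ⊓ centralizer (A : Set G)

theorem le_gen {A X : Subgroup G} {h : G} (hh : h ∈ X) :
    cl A h ⊓ centralizer (A : Set G) ≤ gen A X :=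
  le_iSup₂ (f := fun g (_ : g ∈ X) => cl A g ⊓ centralizer (A : Set G)) h hh

theorem mem_gen {A X : Subgroup G} {h z : G} (hh : h ∈ X) (hz : z ∈ cl A h)
    (hz' : z ∈ centralizer (A : Set G)) : z ∈ gen A X :=
  le_gen hh ⟨hz, hz'⟩

theorem gen_mono {A X Y : Subgroup G} (h : Y ≤ X) : gen A Y ≤ gen A X :=
  iSup₂_le fun _ hy => le_gen (h hy)

/-- Conjugation invariance suffices for membership in a normalizer, for a subgroup of operators. -/
theorem le_normalizer_of_conj_mem {A H : Subgroup G} (h : ∀ a ∈ A, ∀ x ∈ H, a * x * a⁻¹ ∈ H) :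
    A ≤ normalizer (H : Set G) := by
  intro a ha
  rw [mem_normalizer_iff]
  exact fun x => ⟨h a ha x, fun hx => by simpa [mul_assoc] using h _ (A.inv_mem ha) _ hx⟩

theorem conj_mem_of_le {A H : Subgroup G} (hA : A ≤ normalizer (H : Set G)) {a x : G} (ha : a ∈ A)
    (hx : x ∈ H) : a * x * a⁻¹ ∈ H :=
  (mem_normalizer_iff.mp (hA ha) x).mp hx

theorem inv_conj_mem_of_le {A H : Subgroup G} (hA : A ≤ normalizer (H : Set G)) {a x : G}
    (ha : a ∈ A) (hx : x ∈ H) : a⁻¹ * x * a ∈ H := by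
  simpa using conj_mem_of_le hA (A.inv_mem ha) hx

theorem le_normalizer_sup {A H K : Subgroup G} (hH : A ≤ normalizer (H : Set G))
    (hK : A ≤ normalizer (K : Set G)) : A ≤ normalizer ((H ⊔ K : Subgroup G) : Set G) := by
  refine le_normalizer_of_conj_mem fun a ha x hx => ?_
  suffices h : H ⊔ K ≤ (H ⊔ K).comap (MulAut.conj a).toMonoidHom from h hx
  exact sup_le (fun y hy => mem_sup_left (conj_mem_of_le hH ha hy))
    (fun y hy => mem_sup_right (conj_mem_of_le hK ha hy))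

theorem le_normalizer_inf {A H K : Subgroup G} (hH : A ≤ normalizer (H : Set G))
    (hK : A ≤ normalizer (K : Set G)) : A ≤ normalizer ((H ⊓ K : Subgroup G) : Set G) :=
  le_normalizer_of_conj_mem fun _ ha _ hx =>
    ⟨conj_mem_of_le hH ha hx.1, conj_mem_of_le hK ha hx.2⟩

theorem le_normalizer_iSup {ι : Sort*} {A : Subgroup G} {H : ι → Subgroup G}
    (hH : ∀ i, A ≤ normalizer (H i : Set G)) :
    A ≤ normalizer ((⨆ i, H i : Subgroup G) : Set G) := by
  refine le_normalizer_of_conj_mem fun a ha x hx => ?_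
  suffices h : (⨆ i, H i) ≤ (⨆ i, H i).comap (MulAut.conj a).toMonoidHom from h hx
  exact iSup_le fun i y hy => mem_iSup_of_mem i (conj_mem_of_le (hH i) ha hy)

theorem cl_le {A H : Subgroup G} (hA : A ≤ normalizer (H : Set G)) {h : G} (hh : h ∈ H) :
    cl A h ≤ H := by
  rw [cl, closure_le]
  rintro _ ⟨a, ha, rfl⟩
  rw [mul_assoc, mul_assoc, ← mul_assoc a]
  exact H.mul_mem (H.inv_mem hh) (conj_mem_of_le hA ha hh)

theorem cl_le_commutator {A H : Subgroup G} {h : G} (hh : h ∈ H) : cl A h ≤ ⁅H, A⁆ := by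
  rw [cl, closure_le]
  rintro _ ⟨a, ha, rfl⟩
  have := commutator_mem_commutator (H₁ := H) (H₂ := A) (H.inv_mem hh) ha
  simpa [commutatorElement_def] using this

theorem le_normalizer_cl (A : Subgroup G) (h : G) : A ≤ normalizer (cl A h : Set G) := by
  refine le_normalizer_of_conj_mem fun a ha x hx => ?_
  suffices h' : cl A h ≤ (cl A h).comap (MulAut.conj a).toMonoidHom from h' hx
  unfold cl
  rw [closure_le]
  rintro _ ⟨b, hb, rfl⟩
  have e : a * (h⁻¹ * b * h * b⁻¹) * a⁻¹ =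
      (h⁻¹ * a * h * a⁻¹)⁻¹ * (h⁻¹ * (a * b) * h * (a * b)⁻¹) := by group
  show a * (h⁻¹ * b * h * b⁻¹) * a⁻¹ ∈ cl A h
  rw [e]
  exact mul_mem (inv_mem (gen_mem_cl ha)) (gen_mem_cl (A.mul_mem ha hb))

theorem commutator_le_of_cl {A H M : Subgroup G} (h : ∀ x ∈ H, cl A x ≤ M) : ⁅H, A⁆ ≤ M := by
  rw [commutator_le]
  intro x hx a ha
  have := h x⁻¹ (H.inv_mem hx) (gen_mem_cl ha)
  simpa [commutatorElement_def] using this

theorem gen_le {A X : Subgroup G} (hA : A ≤ normalizer (X : Set G)) :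
    gen A X ≤ X ⊓ centralizer (A : Set G) :=
  iSup₂_le fun _ hh => inf_le_inf_right _ (cl_le hA hh)

/-- Fixed points of `X` normalise `gen A X`. -/
theorem conj_mem_gen {A X : Subgroup G} {c z : G} (hcX : c ∈ X)
    (hc : c ∈ centralizer (A : Set G)) (hz : z ∈ gen A X) : c * z * c⁻¹ ∈ gen A X := by
  suffices h' : gen A X ≤ (gen A X).comap (MulAut.conj c).toMonoidHom from h' hz
  refine iSup₂_le fun h hh => ?_
  rintro y ⟨hy, hy'⟩
  refine mem_gen (h := h * c⁻¹) (X.mul_mem hh (X.inv_mem hcX)) ?_ ?_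
  · suffices h'' : cl A h ≤ (cl A (h * c⁻¹)).comap (MulAut.conj c).toMonoidHom from h'' hy
    rw [cl, closure_le]
    rintro _ ⟨a, ha, rfl⟩
    have hca : c * a = a * c := (mem_centralizer_iff.mp hc a ha).symm
    have e : c * (h⁻¹ * a * h * a⁻¹) * c⁻¹ = (h * c⁻¹)⁻¹ * a * (h * c⁻¹) * a⁻¹ := by
      calc c * (h⁻¹ * a * h * a⁻¹) * c⁻¹ = c * h⁻¹ * a * h * (c * a)⁻¹ := by group
        _ = c * h⁻¹ * a * h * (a * c)⁻¹ := by rw [hca]
        _ = _ := by group
    show c * (h⁻¹ * a * h * a⁻¹) * c⁻¹ ∈ cl A (h * c⁻¹)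
    rw [e]
    exact gen_mem_cl ha
  · exact mul_mem (mul_mem hc hy') (inv_mem hc)

theorem map_cl {Q : Type*} [Group Q] (f : G →* Q) (A : Subgroup G) (h : G) :
    (cl A h).map f = cl (A.map f) (f h) := by
  rw [cl, cl, MonoidHom.map_closure]
  congr 1
  ext z
  constructor
  · rintro ⟨_, ⟨a, ha, rfl⟩, rfl⟩
    exact ⟨f a, mem_map_of_mem f ha, by simp⟩
  · rintro ⟨_, ⟨a, ha, rfl⟩, rfl⟩
    exact ⟨_, ⟨a, ha, rfl⟩, by simp⟩

/-- The induction hypothesis below `n`. -/
def HoldsBelow (p n : ℕ) : Prop :=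
  ∀ (Q : Type u) [Group Q] [Finite Q] (A X : Subgroup Q), Nat.card X < n →
    A ≤ normalizer (X : Set Q) → Group.IsSolvable X → (Nat.card X).Coprime p →
    Nat.card A ∣ p → ⁅X, A⁆ ⊓ centralizer (A : Set Q) ≤ gen A X

/-- The fixed points of a quotient come from `gen`. -/
theorem quotient_step [Finite G] {p : ℕ} {A X N : Subgroup G}
    (IH : HoldsBelow.{u} p (Nat.card X)) (hAX : A ≤ normalizer (X : Set G))
    (hsol : Group.IsSolvable X) (hcop : (Nat.card X).Coprime p) (hA : Nat.card A = p)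
    (hX : ⁅X, A⁆ = X) (hNX : N ≤ X) (hN : N ≠ ⊥) (hXN : X ≤ normalizer (N : Set G))
    (hAN : A ≤ normalizer (N : Set G)) :
    X ⊓ centralizer (A : Set G) ≤ gen A X ⊔ N := by
  let T : Subgroup G := normalizer (N : Set G)
  let N' : Subgroup T := N.subgroupOf T
  let f : T →* T ⧸ N' := QuotientGroup.mk' N'
  let A1 : Subgroup T := A.subgroupOf T
  let X1 : Subgroup T := X.subgroupOf T
  have hA1 : A1.map T.subtype = A := map_subgroupOf_eq_of_le hAN
  have hX1 : X1.map T.subtype = X := map_subgroupOf_eq_of_le hXN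
  let A2 := A1.map f
  let X2 := X1.map f
  have hdX : Nat.card X2 ∣ Nat.card X := by
    rw [← Coprime.card_subgroupOf hXN]
    exact card_map_dvd X1 f
  have hlt : Nat.card X2 < Nat.card X := by
    have h := Coprime.card_map_mul_card_inf_ker f X1
    rw [show f.ker = N' from QuotientGroup.ker_mk' N', Coprime.card_subgroupOf hXN] at h
    have hinf : X1 ⊓ N' = N' := inf_eq_right.mpr (comap_mono hNX)
    rw [hinf, Coprime.card_subgroupOf le_normalizer] at h
    have hN2 : 2 ≤ Nat.card N := by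
      have := (one_lt_card_iff_ne_bot N).mpr hN
      omega
    have hpos : 0 < Nat.card X2 := Nat.card_pos
    change Nat.card X2 * Nat.card N = Nat.card X at h
    nlinarith
  have hAX2 : A2 ≤ normalizer (X2 : Set (T ⧸ N')) := by
    refine le_normalizer_of_conj_mem ?_
    rintro _ ⟨a, ha, rfl⟩ _ ⟨x, hx, rfl⟩
    refine ⟨a * x * a⁻¹, ?_, by simp⟩
    refine mem_subgroupOf.mpr ?_
    simpa using conj_mem_of_le hAX (mem_subgroupOf.mp ha) (mem_subgroupOf.mp hx)
  have hsolX1 : Group.IsSolvable X1 := by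
    haveI := hsol
    exact Coprime.isSolvable_subgroupOf X T
  have hsol2 : Group.IsSolvable X2 := by
    haveI := hsolX1
    exact Coprime.isSolvable_map f X1
  have hA2 : Nat.card A2 ∣ p := by
    rw [← hA, ← Coprime.card_subgroupOf hAN]
    exact card_map_dvd A1 f
  have key := IH (T ⧸ N') A2 X2 hlt hAX2 hsol2 (hcop.coprime_dvd_left hdX) hA2
  rintro c ⟨hcX, hcA⟩
  let c1 : T := ⟨c, hXN hcX⟩
  have hc2 : f c1 ∈ ⁅X2, A2⁆ ⊓ centralizer (A2 : Set (T ⧸ N')) := by
    refine ⟨?_, ?_⟩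
    · have hc' : c ∈ (⁅X1, A1⁆ : Subgroup T).map T.subtype := by
        rw [map_commutator, hX1, hA1, hX]; exact hcX
      obtain ⟨c', hc', hcc'⟩ := hc'
      have : c' = c1 := Subtype.ext hcc'
      rw [show ⁅X2, A2⁆ = (⁅X1, A1⁆ : Subgroup T).map f from (map_commutator X1 A1 f).symm]
      exact mem_map_of_mem f (this ▸ hc')
    · show f c1 ∈ centralizer (A2 : Set (T ⧸ N'))
      rw [mem_centralizer_iff]
      rintro _ ⟨a, ha, rfl⟩
      rw [← map_mul, ← map_mul]
      congr 1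
      exact Subtype.ext (mem_centralizer_iff.mp hcA _ (mem_subgroupOf.mp ha))
  have hmain : gen A2 X2 ≤ ((gen A X).subgroupOf T).map f := by
    refine iSup₂_le ?_
    rintro _ ⟨h, hh, rfl⟩ y ⟨hy, hy'⟩
    rw [← map_cl] at hy
    obtain ⟨y1, hy1, rfl⟩ := hy
    have hhX : (h : G) ∈ X := mem_subgroupOf.mp hh
    have hy1L : (y1 : G) ∈ cl A (h : G) := by
      have := mem_map_of_mem T.subtype hy1
      rw [map_cl, hA1] at this
      exact this
    have hLX : cl A (h : G) ≤ X := cl_le hAX hhX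
    have hAM : A ≤ normalizer ((N ⊓ cl A (h : G) : Subgroup G) : Set G) :=
      le_normalizer_inf hAN (le_normalizer_cl A _)
    have hcopM : (Nat.card A).Coprime (Nat.card (N ⊓ cl A (h : G) : Subgroup G)) := by
      rw [hA]
      exact (hcop.coprime_dvd_left (card_dvd_of_le (inf_le_left.trans hNX))).symm
    obtain ⟨z, hz, hzn⟩ := Coprime.exists_centralizer_mem_coset hAM hcopM
      (Or.inr (Coprime.isSolvable_of_le (inf_le_left.trans hNX) hsol)) (k := (y1 : G)) (by
        intro a ha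
        refine ⟨?_, (cl A (h : G)).mul_mem (inv_mem hy1L)
          (conj_mem_of_le (le_normalizer_cl A _) ha hy1L)⟩
        have h1 : f ⟨a, hAN ha⟩ * f y1 = f y1 * f ⟨a, hAN ha⟩ :=
          mem_centralizer_iff.mp hy' _ (mem_map_of_mem f (mem_subgroupOf.mpr ha))
        have h2 : y1⁻¹ * (⟨a, hAN ha⟩ * y1 * (⟨a, hAN ha⟩ : T)⁻¹) ∈ f.ker := by
          rw [MonoidHom.mem_ker]
          simp only [map_mul, map_inv, h1]
          group
        rw [QuotientGroup.ker_mk'] at h2
        simpa using mem_subgroupOf.mp h2)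
    have hzL : z ∈ cl A (h : G) := by
      simpa using (cl A (h : G)).mul_mem hy1L hzn.2
    have hzT : z ∈ T := hXN (hLX hzL)
    refine ⟨⟨z, hzT⟩, mem_subgroupOf.mpr (mem_gen hhX hzL hz), ?_⟩
    symm
    rw [show f = QuotientGroup.mk' N' from rfl, QuotientGroup.mk'_apply, QuotientGroup.mk'_apply,
      QuotientGroup.eq]
    exact mem_subgroupOf.mpr (by simpa using hzn.1)
  obtain ⟨k, hk, hkc⟩ := hmain (key hc2)
  have hkn : k⁻¹ * c1 ∈ f.ker := by rw [MonoidHom.mem_ker, map_mul, map_inv, hkc]; group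
  rw [QuotientGroup.ker_mk'] at hkn
  have := mul_mem_sup (mem_subgroupOf.mp hk) (mem_subgroupOf.mp hkn)
  simpa [c1] using this

end Cfsg.Agent.Lib.FixedGen
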