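import Cfsg.Agent.Lib.FixedGen.Noncentral
import Mathlib.GroupTheory.Transfer
import Mathlib.Algebra.Group.TypeTags.Basic
import Mathlib.Algebra.Module.NatInt

/-! The inductive step when the minimal normal subgroup is central. -/

set_option autoImplicit false

namespace Cfsg.Agent.Lib.FixedGen

open scoped Pointwise commutatorElement IsMulCommutative
open Subgroup

universe u

variable {G : Type u} [Group G] [Finite G] {p : ℕ} {A X : Subgroup G}

/-- A fixed element of `X = [X, A]` lies in the derived subgroup. -/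
theorem fixed_mem_derived (h : Setup p A X) {v : G} (hvX : v ∈ X)
    (hv : v ∈ centralizer (A : Set G)) : v ∈ ⁅X, X⁆ := by
  haveI : Fintype A := Fintype.ofFinite A
  let φ := Coprime.conjHom h.norm
  let Ψ : X →* Abelianization X := ∏ a : A, Abelianization.of.comp (φ a).toMonoidHom
  have hΨ : ∀ x : X, Ψ x = ∏ a : A, Abelianization.of (φ a x) := fun x => by
    simp [Ψ, MonoidHom.finsetProd_apply]
  have hker : ⁅X, A⁆ ≤ Ψ.ker.map X.subtype := by
    rw [commutator_le]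
    intro x hx a ha
    refine ⟨⟨x, hx⟩ * φ ⟨a, ha⟩ ⟨x, hx⟩⁻¹, ?_,
      by simp [φ, Coprime.coe_conjHom_apply, commutatorElement_def, mul_assoc]⟩
    show Ψ _ = 1
    rw [map_mul]
    have e : Ψ (φ ⟨a, ha⟩ ⟨x, hx⟩⁻¹) = Ψ ⟨x, hx⟩⁻¹ := by
      rw [hΨ, hΨ]
      refine Fintype.prod_equiv (Equiv.mulRight ⟨a, ha⟩) _ _ fun b => ?_
      simp [map_mul]
    rw [e, map_inv, mul_inv_cancel]
  rw [h.full] at hker
  obtain ⟨v', hv', he⟩ := hker hvX
  have hfix : ∀ a : A, φ a v' = v' := fun a => Subtype.ext (by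
    rw [Coprime.coe_conjHom_apply]
    exact mul_inv_eq_iff_eq_mul.mpr (by
      rw [show (v' : G) = v from he]; exact mem_centralizer_iff.mp hv a a.2))
  have h1 : (Abelianization.of v') ^ p = 1 := by
    have := hv'
    rw [SetLike.mem_coe, MonoidHom.mem_ker, hΨ] at this
    simpa [hfix, ← Nat.card_eq_fintype_card, h.cardA] using this
  have h2 : Abelianization.of v' = 1 := by
    have hc : (Nat.card (Abelianization X)).Coprime p :=
      h.cop.coprime_dvd_left (card_dvd_of_surjective (Abelianization.of (G := X)) Quot.mk_surjective)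
    exact (powCoprime hc).injective (by simpa [powCoprime_apply] using h1)
  have h3 : v' ∈ commutator X := by
    rw [← Abelianization.ker_of]; exact h2
  rw [← map_subtype_commutator]
  exact ⟨v', h3, he⟩

/-- Central derived elements of a Sylow subgroup are derived in it. -/
theorem pow_index_mem_derived {v : G} {r : ℕ} [Fact r.Prime] (P : Sylow r X)
    (hv : v ∈ ⁅X, X⁆) (hvz : v ∈ centralizer (X : Set G)) :
    v ^ (P : Subgroup X).index ∈
      ⁅(P : Subgroup X).map X.subtype, (P : Subgroup X).map X.subtype⁆ := by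
  rw [← map_subtype_commutator] at hv
  obtain ⟨v', hv', rfl⟩ := hv
  have key : ∀ (k : ℕ) (g₀ : X), g₀⁻¹ * v' ^ k * g₀ ∈ (P : Subgroup X) →
      g₀⁻¹ * v' ^ k * g₀ = v' ^ k := by
    intro k g₀ _
    have hc : Commute g₀ v' := Subtype.ext (mem_centralizer_iff.mp hvz g₀ g₀.2)
    rw [mul_assoc, ← (hc.pow_right k).eq, inv_mul_cancel_left]
  have h1 := MonoidHom.transfer_eq_pow (Abelianization.of (G := (P : Subgroup X))) v' key
  have h2 : MonoidHom.transfer (Abelianization.of (G := (P : Subgroup X))) v' = 1 :=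
    (Abelianization.commutator_subset_ker _) hv'
  rw [h2] at h1
  have h3 : (⟨v' ^ (P : Subgroup X).index, MonoidHom.transfer_eq_pow_aux v' key⟩ :
      (P : Subgroup X)) ∈ commutator (P : Subgroup X) := by
    rw [← Abelianization.ker_of]; exact h1.symm
  have h4 := mem_map_of_mem X.subtype (mem_map_of_mem (P : Subgroup X).subtype h3)
  rw [map_subtype_commutator, map_commutator] at h4
  simpa using h4

theorem central (h : Setup p A X) {V : Subgroup G} [IsMulCommutative V] (hVX : V ≤ X)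
    (hV : V ≠ ⊥) (hXV : X ≤ normalizer (V : Set G)) (hAV : A ≤ normalizer (V : Set G))
    (hmin : ∀ N : Subgroup G, N ≤ V → X ≤ normalizer (N : Set G) →
      A ≤ normalizer (N : Set G) → N = ⊥ ∨ N = V)
    (hc : V ≤ centralizer (X : Set G)) : X ⊓ centralizer (A : Set G) ≤ gen A X := by
  classical
  by_contra hgoal
  let Zc : Subgroup G := X ⊓ centralizer (X : Set G)
  have hcomm : ∀ z ∈ Zc, ∀ x ∈ X, z * x = x * z := fun z hz x hx =>
    (mem_centralizer_iff.mp hz.2 x hx).symm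
  have hAZ : A ≤ normalizer (Zc : Set G) :=
    le_normalizer_inf h.norm (h.norm.trans (Coprime.normalizer_le_normalizer_centralizer X))
  have hXnorm : ∀ N : Subgroup G, N ≤ Zc → X ≤ normalizer (N : Set G) := fun N hN =>
    le_normalizer_of_conj_mem fun x hx n hn => by
      rwa [← hcomm n (hN hn) x hx, mul_inv_cancel_right]
  have hno : ∀ N : Subgroup G, N ≤ Zc → N ≠ ⊥ → A ≤ normalizer (N : Set G) →
      ¬ (N ⊓ centralizer (A : Set G) ≤ gen A X) := fun N hN hN0 hAN hle =>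
    hgoal (h.of_inf_le (hN.trans inf_le_left) hN0 (hXnorm N hN) hAN hle)
  have hVZ : V ≤ Zc := le_inf hVX hc
  have hKZ : ∀ z ∈ gen A X, z ∈ Zc → z = 1 := by
    intro z hz hz'
    by_contra hz1
    refine hno (gen A X ⊓ Zc) inf_le_right (fun h0 => hz1 ?_) ?_ (inf_le_left.trans inf_le_left)
    · have : z ∈ gen A X ⊓ Zc := ⟨hz, hz'⟩
      rwa [h0, mem_bot] at this
    · refine le_normalizer_of_conj_mem fun a ha x hx => ?_
      rwa [show a * x = x * a from mem_centralizer_iff.mp (gen_le h.norm hx.1).2 a ha,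
        mul_inv_cancel_right]
  have hVfix : V ≤ centralizer (A : Set G) := by
    rcases hmin (V ⊓ centralizer (A : Set G)) inf_le_left (hXnorm _ (inf_le_left.trans hVZ))
      (le_normalizer_inf hAV (le_normalizer.trans (Coprime.normalizer_le_normalizer_centralizer A))) with
      h0 | h0
    · exact absurd (h0.le.trans bot_le) (hno V hVZ hV hAV)
    · exact inf_eq_left.mp h0
  -- `V` has prime order
  obtain ⟨r, hr, hVr⟩ : ∃ r : ℕ, r.Prime ∧ IsPGroup r V := by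
    obtain ⟨v, hv, hv1⟩ := (bot_or_exists_ne_one V).resolve_left hV
    let r := (orderOf v).minFac
    have hr : r.Prime := Nat.minFac_prime (by simpa [orderOf_eq_one_iff] using hv1)
    let z := v ^ (orderOf v / r)
    have hzo : orderOf z = r :=
      orderOf_pow_orderOf_div (orderOf_pos v).ne' (Nat.minFac_dvd _)
    have hzV : z ∈ V := pow_mem hv _
    haveI := Fact.mk hr
    rcases hmin (zpowers z) (zpowers_le.mpr hzV) (hXnorm _ ((zpowers_le.mpr hzV).trans hVZ))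
      (le_normalizer_of_conj_mem fun a ha x hx => by
        rwa [show a * x = x * a from mem_centralizer_iff.mp (hVfix ((zpowers_le.mpr hzV) hx)) a ha,
          mul_inv_cancel_right]) with h0 | h0
    · rw [zpowers_eq_bot] at h0
      rw [h0, orderOf_one] at hzo
      exact absurd hzo.symm hr.ne_one
    · exact ⟨r, hr, h0 ▸ IsPGroup.of_card (n := 1) (by rw [Nat.card_zpowers, hzo, pow_one])⟩
  haveI := Fact.mk hr
  obtain ⟨P, hVP, hPA⟩ := Coprime.exists_invariant_sylow_ge h.norm (h.copA le_rfl)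
    (h.solvLe le_rfl) hVX hVr hAV
  let R : Subgroup G := (P : Subgroup X).map X.subtype
  have hRX : R ≤ X := map_subtype_le _
  have hXr : R = X := by
    by_contra hne
    let M : Subgroup G := ⁅R, A⁆
    let W : Subgroup G := M ⊔ (gen A X ⊓ R)
    have hRM : R ≤ normalizer (M : Set G) := Coprime.left_le_normalizer_commutator R A
    have hdec : ∀ x ∈ R, ∃ m ∈ M, ∃ c ∈ R ⊓ centralizer (A : Set G), x = m * c := by
      intro x hx
      have hx' : x ∈ M ⊔ (R ⊓ centralizer (A : Set G)) := by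
        rw [Coprime.commutator_sup_centralizer hPA (h.copA hRX) (h.solvLe hRX)]; exact hx
      rw [← SetLike.mem_coe, coe_mul_of_right_le_normalizer_left _ _ (inf_le_left.trans hRM)] at hx'
      obtain ⟨m, hm, c, hc', rfl⟩ := hx'
      exact ⟨m, hm, c, hc', rfl⟩
    have hW : ⁅R, R⁆ ≤ W := by
      rw [commutator_le]
      intro x hx y hy
      obtain ⟨m, hm, c, hc', rfl⟩ := hdec x hx
      obtain ⟨n, hn, d, hd', rfl⟩ := hdec y hy
      have hk : c * d * c⁻¹ * d⁻¹ ∈ gen A X ⊓ R := mem_inf.mpr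
        ⟨h.commutator_fixed_mem hVX hV hXV hAV (hRX hc'.1) hc'.2 (hRX hd'.1) hd'.2,
          mul_mem (mul_mem (mul_mem hc'.1 hd'.1) (inv_mem hc'.1)) (inv_mem hd'.1)⟩
      have e : ⁅m * c, n * d⁆ = m * (c * n * c⁻¹) *
          ((c * d * c⁻¹) * m⁻¹ * (c * d * c⁻¹)⁻¹) * (c * d * c⁻¹ * d⁻¹) * n⁻¹ := by
        rw [commutatorElement_def]; group
      rw [e]
      refine mul_mem (mul_mem (mul_mem (mul_mem (mem_sup_left hm) (mem_sup_left ?_))
        (mem_sup_left ?_)) (mem_sup_right hk)) (mem_sup_left (inv_mem hn))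
      · exact conj_mem_of_le hRM hc'.1 hn
      · exact conj_mem_of_le hRM (mul_mem (mul_mem hc'.1 hd'.1) (inv_mem hc'.1)) (inv_mem hm)
    refine hno V hVZ hV hAV ?_
    rintro v ⟨hv, hvA⟩
    have hvW : v ^ (P : Subgroup X).index ∈ W :=
      hW (pow_index_mem_derived P (fixed_mem_derived h (hVX hv) hvA) (hc hv))
    obtain ⟨j, hj⟩ := exists_pow_eq_self_of_coprime (x := v) (n := (P : Subgroup X).index)
      (Nat.Coprime.coprime_dvd_right ((orderOf_mk v hv).symm.dvd.trans (orderOf_dvd_natCard _)) (by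
        obtain ⟨k, hk⟩ := IsPGroup.iff_card.mp hVr
        rw [hk]
        exact Nat.Coprime.pow_right k
          ((Nat.Prime.coprime_iff_not_dvd hr).mpr P.not_dvd_index).symm))
    have hv' : v ∈ W := hj ▸ pow_mem hvW j
    rw [← SetLike.mem_coe, coe_mul_of_right_le_normalizer_left _ _ (inf_le_right.trans hRM)] at hv'
    obtain ⟨m, hm, k, hk, rfl⟩ := hv'
    refine mul_mem (h.sub_step hRX hne hPA ⟨hm, ?_⟩) hk.1
    have hkA : k ∈ centralizer (A : Set G) := (gen_le h.norm hk.1).2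
    have hmk : m * k ∈ centralizer (A : Set G) := hvA
    have hm' := (centralizer (A : Set G)).mul_mem hmk ((centralizer (A : Set G)).inv_mem hkA)
    rw [mul_inv_cancel_right] at hm'
    exact hm'
  -- `X` is a group of prime power order
  have hXp : IsPGroup r X := hXr ▸ P.2.map X.subtype
  haveI : Group.IsNilpotent X := hXp.isNilpotent
  have hZfix : Zc ≤ centralizer (A : Set G) := by
    haveI : IsMulCommutative Zc :=
      ⟨⟨fun z w => Subtype.ext (hcomm z z.2 w w.2.1)⟩⟩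
    have hle := Coprime.commutator_le_of_le_normalizer' hAZ
    by_cases h0 : ⁅Zc, A⁆ = ⊥
    · exact commutator_eq_bot_iff_le_centralizer.mp h0
    · refine absurd ?_ (hno _ hle h0 (Coprime.right_le_normalizer_commutator Zc A))
      have := Coprime.inf_centralizer_inf_commutator hAZ (h.copA inf_le_left)
      exact le_trans (le_of_eq_of_le (le_antisymm
        (le_inf (le_inf (inf_le_left.trans hle) inf_le_right) inf_le_left)
        (le_inf inf_le_right (inf_le_left.trans inf_le_right))) this.le) bot_le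
  -- the second centre
  let Z2 : Subgroup G :=
    { carrier := {q | q ∈ X ∧ ∀ x ∈ X, q * x * q⁻¹ * x⁻¹ ∈ Zc}
      one_mem' := ⟨one_mem _, fun x _ => by simp⟩
      mul_mem' := fun {q q'} hq hq' => ⟨mul_mem hq.1 hq'.1, fun x hx => by
        have e : q * q' * x * (q * q')⁻¹ * x⁻¹ =
            q * (q' * x * q'⁻¹ * x⁻¹) * q⁻¹ * (q * x * q⁻¹ * x⁻¹) := by group
        rw [e, ← hcomm _ (hq'.2 x hx) q hq.1, mul_inv_cancel_right]
        exact mul_mem (hq'.2 x hx) (hq.2 x hx)⟩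
      inv_mem' := fun {q} hq => ⟨inv_mem hq.1, fun x hx => by
        have e : q⁻¹ * x * q⁻¹⁻¹ * x⁻¹ = q⁻¹ * (q * x * q⁻¹ * x⁻¹)⁻¹ * q := by group
        rw [e, ← hcomm _ (inv_mem (hq.2 x hx)) q⁻¹ (inv_mem hq.1), inv_mul_cancel_right]
        exact inv_mem (hq.2 x hx)⟩ }
  have bil_left : ∀ {q q' x : G}, q ∈ Z2 → q' ∈ Z2 → x ∈ X →
      q * q' * x * (q * q')⁻¹ * x⁻¹ = (q * x * q⁻¹ * x⁻¹) * (q' * x * q'⁻¹ * x⁻¹) := by
    intro q q' x hq hq' hx
    have hz := hq'.2 x hx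
    calc q * q' * x * (q * q')⁻¹ * x⁻¹
        = q * (q' * x * q'⁻¹ * x⁻¹) * q⁻¹ * (q * x * q⁻¹ * x⁻¹) := by group
      _ = (q' * x * q'⁻¹ * x⁻¹) * (q * x * q⁻¹ * x⁻¹) := by
          rw [← hcomm _ hz q hq.1, mul_inv_cancel_right]
      _ = _ := hcomm _ hz _ (hq.2 x hx).1
  have bil_right : ∀ {q x y : G}, q ∈ Z2 → x ∈ X → y ∈ X →
      q * (x * y) * q⁻¹ * (x * y)⁻¹ = (q * x * q⁻¹ * x⁻¹) * (q * y * q⁻¹ * y⁻¹) := by
    intro q x y hq hx hy
    have hz := hq.2 y hy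
    calc q * (x * y) * q⁻¹ * (x * y)⁻¹
        = (q * x * q⁻¹ * x⁻¹) * (x * (q * y * q⁻¹ * y⁻¹) * x⁻¹) := by group
      _ = _ := by rw [← hcomm _ hz x hx, mul_inv_cancel_right]
  have inv_left : ∀ {q x : G}, q ∈ Z2 → x ∈ X →
      q⁻¹ * x * q⁻¹⁻¹ * x⁻¹ = (q * x * q⁻¹ * x⁻¹)⁻¹ := by
    intro q x hq hx
    refine eq_inv_of_mul_eq_one_left ?_
    rw [← bil_left (inv_mem hq) hq hx]; group
  have inv_right : ∀ {q x : G}, q ∈ Z2 → x ∈ X →
      q * x⁻¹ * q⁻¹ * x⁻¹⁻¹ = (q * x * q⁻¹ * x⁻¹)⁻¹ := by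
    intro q x hq hx
    refine eq_inv_of_mul_eq_one_left ?_
    rw [← bil_right hq (inv_mem hx) hx]; group
  have hconjA : ∀ {q x a : G}, q ∈ Z2 → x ∈ X → a ∈ A →
      (a * q * a⁻¹) * (a * x * a⁻¹) * (a * q * a⁻¹)⁻¹ * (a * x * a⁻¹)⁻¹ = q * x * q⁻¹ * x⁻¹ := by
    intro q x a hq hx ha
    have h1 : a * (q * x * q⁻¹ * x⁻¹) = (q * x * q⁻¹ * x⁻¹) * a :=
      mem_centralizer_iff.mp (hZfix (hq.2 x hx)) a ha
    calc _ = a * (q * x * q⁻¹ * x⁻¹) * a⁻¹ := by group
      _ = _ := by rw [h1, mul_inv_cancel_right]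
  have hAZ2 : A ≤ normalizer (Z2 : Set G) := by
    refine le_normalizer_of_conj_mem fun a ha q hq => ⟨conj_mem_of_le h.norm ha hq.1, fun x hx => ?_⟩
    have := hconjA hq (inv_conj_mem_of_le h.norm ha hx) ha
    rw [show a * (a⁻¹ * x * a) * a⁻¹ = x by group] at this
    rw [this]
    exact hq.2 _ (inv_conj_mem_of_le h.norm ha hx)
  have hZ2fix : ∀ z ∈ Z2, z ∈ centralizer (A : Set G) → z ∈ Zc := by
    intro z hz hzA
    refine ⟨hz.1, ?_⟩
    have hle : X ≤ centralizer {z} := by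
      rw [← h.full, commutator_le]
      intro x hx a ha
      rw [mem_centralizer_iff]
      intro z' hz'
      rw [show z' = z from hz']
      have hax := conj_mem_of_le h.norm ha hx
      have h1 := hconjA hz hx ha
      rw [mem_centralizer_iff.mp hzA a ha, mul_inv_cancel_right] at h1
      have h2 : z * (x * (a * x * a⁻¹)⁻¹) * z⁻¹ * (x * (a * x * a⁻¹)⁻¹)⁻¹ = 1 := by
        rw [bil_right hz hx (inv_mem hax), inv_right hz hax, h1, mul_inv_cancel]
      rw [mul_inv_eq_one, mul_inv_eq_iff_eq_mul] at h2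
      have e : ⁅x, a⁆ = x * (a * x * a⁻¹)⁻¹ := by rw [commutatorElement_def]; group
      rw [e]; exact h2
    show z ∈ centralizer (X : Set G)
    rw [mem_centralizer_iff]
    exact fun x hx => ((mem_centralizer_iff.mp (hle hx)) z rfl).symm
  obtain ⟨q, hq2, hqZ⟩ : ∃ q ∈ Z2, q ∉ Zc := by
    by_contra hne
    push Not at hne
    have hXab : ∀ x ∈ X, x ∈ Zc := by
      intro x hx
      by_contra hxz
      have htop : (⊤ : Subgroup (X ⧸ center X)) ≠ ⊥ := by
        intro h0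
        have h1 : ((⟨x, hx⟩ : X) : X ⧸ center X) ∈ (⊥ : Subgroup (X ⧸ center X)) := h0 ▸ mem_top _
        rw [mem_bot, QuotientGroup.eq_one_iff, mem_center_iff] at h1
        refine hxz (mem_inf.mpr ⟨hx, ?_⟩)
        rw [mem_centralizer_iff]
        exact fun y hy => congrArg Subtype.val (h1 ⟨y, hy⟩)
      haveI : Group.IsNilpotent (X ⧸ center X) := inferInstance
      have hc0 : center (X ⧸ center X) ≠ ⊥ := by
        intro h0
        obtain ⟨z, hz, hz1⟩ := (bot_or_exists_ne_one _).resolve_left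
          (inf_centralizer_ne_bot (X := (⊤ : Subgroup (X ⧸ center X))) le_rfl
            (by rw [normalizer_eq_top]) htop)
        refine hz1 (mem_bot.mp (h0 ▸ mem_center_iff.mpr fun g => ?_))
        exact mem_centralizer_iff.mp hz.2 g (mem_top g)
      obtain ⟨zb, hzb, hzb1⟩ := (bot_or_exists_ne_one _).resolve_left hc0
      obtain ⟨⟨z, hzX⟩, rfl⟩ := QuotientGroup.mk'_surjective (center X) zb
      have hz2 : z ∈ Z2 := ⟨hzX, fun y hy => by
        have h1 := mem_center_iff.mp hzb (QuotientGroup.mk' _ ⟨y, hy⟩)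
        rw [← map_mul, ← map_mul, QuotientGroup.mk'_eq_mk'] at h1
        obtain ⟨c, hc1, hc2⟩ := h1
        have hc3 : (c : G) ∈ Zc := mem_inf.mpr ⟨c.2, by
          rw [mem_centralizer_iff]
          exact fun w hw => congrArg Subtype.val (mem_center_iff.mp hc1 ⟨w, hw⟩)⟩
        have hc4 : y * z * (c : G) = z * y := congrArg Subtype.val hc2
        have e : z * y * z⁻¹ * y⁻¹ = (c : G) := by
          rw [← hc4, mul_assoc (y * z) (c : G), hcomm _ hc3 z⁻¹ (inv_mem hzX), ← mul_assoc,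
            mul_inv_cancel_right, mul_assoc y, hcomm _ hc3 y⁻¹ (inv_mem hy), mul_inv_cancel_left]
        rw [e]; exact hc3⟩
      refine hzb1 ((QuotientGroup.eq_one_iff _).mpr (mem_center_iff.mpr fun w => Subtype.ext ?_))
      exact (hcomm z (hne z hz2) w w.2).symm
    obtain ⟨v, hv, hv1⟩ := (bot_or_exists_ne_one V).resolve_left hV
    have hvd := fixed_mem_derived h (hVX hv) (hVfix hv)
    have hb : ⁅X, X⁆ = ⊥ := commutator_eq_bot_iff_le_centralizer.mpr fun x hx => (hXab x hx).2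
    rw [hb, mem_bot] at hvd
    exact hv1 hvd
  let Q : Subgroup G := cl A q
  have hQ2 : Q ≤ Z2 := cl_le hAZ2 hq2
  have hQX : Q ≤ X := hQ2.trans fun _ hw => hw.1
  have hAQ : A ≤ normalizer (Q : Set G) := le_normalizer_cl A q
  have hQK : Q ⊓ centralizer (A : Set G) ≤ gen A X := le_gen hq2.1
  have hQnc : ¬ Q ≤ Zc := by
    intro hle
    obtain ⟨c, hc', hn⟩ := Coprime.exists_centralizer_mem_coset hAZ (h.copA inf_le_left)
      (h.solvLe inf_le_left) (k := q) (fun a ha => by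
        have := hle (gen_mem_cl (h := q) ha)
        simpa [mul_assoc] using this)
    have : q ∈ centralizer (A : Set G) := by
      simpa using mul_mem hc' (inv_mem (hZfix hn))
    exact hqZ (hZ2fix q hq2 this)
  have hQab : ∀ w ∈ Q, ∀ w' ∈ Q, w * w' = w' * w := by
    intro w hw w' hw'
    have hz : w * w' * w⁻¹ * w'⁻¹ ∈ Zc := (hQ2 hw).2 w' (hQX hw')
    have hzQ : w * w' * w⁻¹ * w'⁻¹ ∈ Q :=
      mul_mem (mul_mem (mul_mem hw hw') (inv_mem hw)) (inv_mem hw')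
    have h1 := hKZ _ (hQK ⟨hzQ, hZfix hz⟩) hz
    rwa [mul_inv_eq_one, mul_inv_eq_iff_eq_mul] at h1
  let CQ : Subgroup G := X ⊓ centralizer (Q : Set G)
  have hACQ : A ≤ normalizer (CQ : Set G) :=
    le_normalizer_inf h.norm (hAQ.trans (Coprime.normalizer_le_normalizer_centralizer Q))
  have hCQ_mem : ∀ {x : G}, x ∈ X → (∀ w ∈ Q, w * x * w⁻¹ * x⁻¹ = 1) → x ∈ CQ := fun hx h1 =>
    ⟨hx, mem_centralizer_iff.mpr fun w hw => by
      have := h1 w hw
      rwa [mul_inv_eq_one, mul_inv_eq_iff_eq_mul] at this⟩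
  have hCfix : X ⊓ centralizer (A : Set G) ≤ CQ := by
    rintro z ⟨hzX, hzA⟩
    refine ⟨hzX, ?_⟩
    have hle : Q ≤ centralizer {z} := by
      show cl A q ≤ _
      unfold cl
      rw [closure_le]
      rintro _ ⟨a, ha, rfl⟩
      rw [SetLike.mem_coe, mem_centralizer_iff]
      intro z' hz'
      rw [show z' = z from hz']
      have haq : a * q * a⁻¹ ∈ Z2 := conj_mem_of_le hAZ2 ha hq2
      have h1 := hconjA hq2 hzX ha
      rw [mem_centralizer_iff.mp hzA a ha, mul_inv_cancel_right] at h1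
      have h2 : (q⁻¹ * (a * q * a⁻¹)) * z * (q⁻¹ * (a * q * a⁻¹))⁻¹ * z⁻¹ = 1 := by
        rw [bil_left (inv_mem hq2) haq hzX, inv_left hq2 hzX, h1, inv_mul_cancel]
      rw [mul_inv_eq_one, mul_inv_eq_iff_eq_mul] at h2
      rw [show q⁻¹ * a * q * a⁻¹ = q⁻¹ * (a * q * a⁻¹) by group]
      exact h2.symm
    show z ∈ centralizer (Q : Set G)
    rw [mem_centralizer_iff]
    exact fun w hw => ((mem_centralizer_iff.mp (hle hw)) z rfl).symm
  obtain ⟨Y, hYmin⟩ := Set.Finite.exists_minimal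
    (s := {Y : Subgroup G | Y ≤ X ∧ A ≤ normalizer (Y : Set G) ∧ ¬ Y ≤ CQ}) (Set.toFinite _)
    ⟨X, le_rfl, h.norm, fun hle => hQnc fun w hw => ⟨hQX hw,
      mem_centralizer_iff.mpr fun x hx => ((mem_centralizer_iff.mp (hle hx).2) w hw).symm⟩⟩
  obtain ⟨hYX, hAY, hYnc⟩ := hYmin.prop
  obtain ⟨y, hy, hyY⟩ : ∃ y ∈ Y, cl A y = Y := by
    by_contra hne
    push Not at hne
    refine hYnc ?_
    rw [← Coprime.commutator_sup_centralizer hAY (h.copA hYX) (h.solvLe hYX)]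
    refine sup_le (commutator_le_of_cl fun x hx => ?_) ((inf_le_inf_right _ hYX).trans hCfix)
    by_contra hc'
    exact hne x hx (le_antisymm (cl_le hAY hx)
      (hYmin.2 ⟨(cl_le hAY hx).trans hYX, le_normalizer_cl A x, hc'⟩ (cl_le hAY hx)))
  have hYK : Y ⊓ centralizer (A : Set G) ≤ gen A X := hyY ▸ le_gen (hYX hy)
  have hXQY : Q ⊔ Y = X := by
    by_contra hne
    obtain ⟨w, hw, y', hy', hne1⟩ : ∃ w ∈ Q, ∃ y' ∈ Y, w * y' * w⁻¹ * y'⁻¹ ≠ 1 := by
      by_contra hne'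
      push Not at hne'
      exact hYnc fun x hx => hCQ_mem (hYX hx) fun w hw => hne' w hw x hx
    have hz : w * y' * w⁻¹ * y'⁻¹ ∈ Zc := (hQ2 hw).2 y' (hYX hy')
    have hQC : Q ⊓ centralizer (A : Set G) = ⊥ := eq_bot_iff.mpr fun w hw' =>
      mem_bot.mpr (hKZ w (hQK hw') (hZ2fix w (hQ2 hw'.1) hw'.2))
    have hQA : Q ≤ ⁅Q, A⁆ := by
      have h1 := Coprime.commutator_sup_centralizer hAQ (h.copA hQX) (h.solvLe hQX)
      rw [hQC, sup_bot_eq] at h1
      exact h1.symm.le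
    have hfull : Q ⊔ Y ≤ ⁅Q ⊔ Y, A⁆ := sup_le (hQA.trans (commutator_mono le_sup_left le_rfl))
      (hyY.symm.le.trans (cl_le_commutator (mem_sup_right hy)))
    have hin : w * y' * w⁻¹ * y'⁻¹ ∈ Q ⊔ Y :=
      mul_mem (mul_mem (mul_mem (mem_sup_left hw) (mem_sup_right hy')) (inv_mem (mem_sup_left hw)))
        (inv_mem (mem_sup_right hy'))
    exact hne1 (hKZ _ (h.sub_step (sup_le hQX hYX) hne (le_normalizer_sup hAQ hAY)
      ⟨hfull hin, hZfix hz⟩) hz)
  have hYab : ∀ x ∈ Y, ∀ x' ∈ Y, x * x' = x' * x := by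
    by_cases hD : ⁅Y, Y⁆ = ⊥
    · intro x hx x' hx'
      have := commutator_mem_commutator (H₁ := Y) (H₂ := Y) hx hx'
      rw [hD, mem_bot] at this
      exact commutatorElement_eq_one_iff_mul_comm.mp this
    · exfalso
      have hDY : ⁅Y, Y⁆ ≤ Y := commutator_le_self Y
      have hDCQ : ⁅Y, Y⁆ ≤ CQ := by
        rw [commutator_le]
        intro x hx x' hx'
        refine hCQ_mem (hYX (hDY (commutator_mem_commutator hx hx'))) fun w hw => ?_
        have hwZ := hQ2 hw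
        have hxX := hYX hx
        have hx'X := hYX hx'
        rw [commutatorElement_def, bil_right hwZ (mul_mem (mul_mem hxX hx'X) (inv_mem hxX))
          (inv_mem hx'X), bil_right hwZ (mul_mem hxX hx'X) (inv_mem hxX), bil_right hwZ hxX hx'X,
          inv_right hwZ hxX, inv_right hwZ hx'X]
        rw [hcomm _ (hwZ.2 x hxX) _ (hwZ.2 x' hx'X).1, mul_inv_cancel_right, mul_inv_cancel]
      have hnorm : X ≤ normalizer ((⁅Y, Y⁆ : Subgroup G) : Set G) := by
        rw [← hXQY]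
        refine sup_le ?_ (le_normalizer_commutator_of le_normalizer le_normalizer)
        refine le_normalizer_of_conj_mem fun w hw x hx => ?_
        have h1 : w * x = x * w := mem_centralizer_iff.mp (hDCQ hx).2 w hw
        rwa [h1, mul_inv_cancel_right]
      obtain ⟨z, hz, hz1⟩ := (bot_or_exists_ne_one _).resolve_left
        (inf_centralizer_ne_bot (hDY.trans hYX) hnorm hD)
      exact hz1 (hKZ z (hYK ⟨hDY hz.1, hZfix ⟨hYX (hDY hz.1), hz.2⟩⟩) ⟨hYX (hDY hz.1), hz.2⟩)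
  obtain ⟨a, ha, ha1, ha2, hap⟩ := h.exists_gen
  -- the equation for a pair of elements of `A`
  have pair : ∀ w ∈ Q, ∀ x ∈ Y, ∀ b ∈ A,
      (w⁻¹ * a * w * a⁻¹) * (x⁻¹ * b * x * b⁻¹) * (w⁻¹ * a * w * a⁻¹)⁻¹ * (x⁻¹ * b * x * b⁻¹)⁻¹ =
      (w⁻¹ * b * w * b⁻¹) * (x⁻¹ * a * x * a⁻¹) * (w⁻¹ * b * w * b⁻¹)⁻¹ * (x⁻¹ * a * x * a⁻¹)⁻¹ := by
    intro w hw x hx b hb
    have hwa : w⁻¹ * a * w * a⁻¹ ∈ Q := cl_le hAQ hw (gen_mem_cl ha)
    have hwb : w⁻¹ * b * w * b⁻¹ ∈ Q := cl_le hAQ hw (gen_mem_cl hb)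
    have hxa : x⁻¹ * a * x * a⁻¹ ∈ Y := cl_le hAY hx (gen_mem_cl ha)
    have hxb : x⁻¹ * b * x * b⁻¹ ∈ Y := cl_le hAY hx (gen_mem_cl hb)
    let wa := w⁻¹ * a * w * a⁻¹
    let wb := w⁻¹ * b * w * b⁻¹
    let xa := x⁻¹ * a * x * a⁻¹
    let xb := x⁻¹ * b * x * b⁻¹
    let c₁ := wa * xb * wa⁻¹ * xb⁻¹
    let c₂ := wb * xa * wb⁻¹ * xa⁻¹
    have hc₁ : c₁ ∈ Zc := (hQ2 hwa).2 xb (hYX hxb)
    have hc₂ : c₂ ∈ Zc := (hQ2 hwb).2 xa (hYX hxa)
    have hzw : ∀ {v : G}, v ∈ Q → (v⁻¹ * x * v⁻¹⁻¹ * x⁻¹) ∈ Zc := fun hv =>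
      (hQ2 (inv_mem hv)).2 x (hYX hx)
    -- the two generators of `cl A (w * x)`
    have hgen : ∀ d ∈ A, (x⁻¹ * (w⁻¹ * d * w * d⁻¹) * x⁻¹⁻¹ * (w⁻¹ * d * w * d⁻¹)⁻¹) ∈ Zc := by
      intro d hd
      have h1 : (w⁻¹ * d * w * d⁻¹) * x⁻¹ * (w⁻¹ * d * w * d⁻¹)⁻¹ * x⁻¹⁻¹ ∈ Zc :=
        (hQ2 (cl_le hAQ hw (gen_mem_cl hd))).2 x⁻¹ (inv_mem (hYX hx))
      have := inv_mem h1
      convert this using 1
      group
    let za := x⁻¹ * wa * x⁻¹⁻¹ * wa⁻¹
    let zb := x⁻¹ * wb * x⁻¹⁻¹ * wb⁻¹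
    have hza : za ∈ Zc := hgen a ha
    have hzb : zb ∈ Zc := hgen b hb
    have ga : (w * x)⁻¹ * a * (w * x) * a⁻¹ = za * (wa * xa) := by simp only [za, wa, xa]; group
    have gb : (w * x)⁻¹ * b * (w * x) * b⁻¹ = zb * (wb * xb) := by simp only [zb, wb, xb]; group
    have h1 : za * (wa * xa) ∈ cl A (w * x) := ga ▸ gen_mem_cl ha
    have h2 : zb * (wb * xb) ∈ cl A (w * x) := gb ▸ gen_mem_cl hb
    have hwaX : wa * xa ∈ X := mul_mem (hQX hwa) (hYX hxa)
    have hwbX : wb * xb ∈ X := mul_mem (hQX hwb) (hYX hxb)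
    have hval : (za * (wa * xa)) * (zb * (wb * xb)) * (za * (wa * xa))⁻¹ * (zb * (wb * xb))⁻¹ =
        c₂⁻¹ * c₁ := by
      have e1 : (za * (wa * xa)) * (zb * (wb * xb)) * (za * (wa * xa))⁻¹ * (zb * (wb * xb))⁻¹ =
          (wa * xa) * (wb * xb) * (wa * xa)⁻¹ * (wb * xb)⁻¹ := by
        have hP := hwaX
        have hR := hwbX
        have hC : (wa * xa) * (wb * xb) * (wa * xa)⁻¹ * (wb * xb)⁻¹ ∈ X :=
          mul_mem (mul_mem (mul_mem hP hR) (inv_mem hP)) (inv_mem hR)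
        calc _ = za * ((wa * xa) * zb) * (wb * xb) * (wa * xa)⁻¹ *
              (za⁻¹ * (wb * xb)⁻¹) * zb⁻¹ := by group
          _ = za * (zb * (wa * xa)) * (wb * xb) * (wa * xa)⁻¹ *
              ((wb * xb)⁻¹ * za⁻¹) * zb⁻¹ := by
              rw [hcomm zb hzb _ hP, hcomm _ (inv_mem hza) _ (inv_mem hR)]
          _ = za * (zb * ((wa * xa) * (wb * xb) * (wa * xa)⁻¹ * (wb * xb)⁻¹)) *
              (za⁻¹ * zb⁻¹) := by group
          _ = za * (((wa * xa) * (wb * xb) * (wa * xa)⁻¹ * (wb * xb)⁻¹) * zb) *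
              (zb⁻¹ * za⁻¹) := by
              rw [hcomm zb hzb _ hC, hcomm _ (inv_mem hza) _ (inv_mem hzb.1)]
          _ = za * ((wa * xa) * (wb * xb) * (wa * xa)⁻¹ * (wb * xb)⁻¹) * za⁻¹ := by group
          _ = _ := by rw [hcomm za hza _ hC, mul_inv_cancel_right]
      rw [e1]
      have k5 : wa * wb = wb * wa := hQab _ hwa _ hwb
      have k6 : xa * xb = xb * xa := hYab _ hxa _ hxb
      calc (wa * xa) * (wb * xb) * (wa * xa)⁻¹ * (wb * xb)⁻¹
          = wa * c₂⁻¹ * wb * (xa * xb) * xa⁻¹ * wa⁻¹ * xb⁻¹ * wb⁻¹ := by simp only [c₂]; group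
        _ = c₂⁻¹ * (wa * wb) * xb * wa⁻¹ * xb⁻¹ * wb⁻¹ := by
            rw [← hcomm _ (inv_mem hc₂) wa (hQX hwa), k6]; group
        _ = c₂⁻¹ * (wb * c₁ * wb⁻¹) := by rw [k5]; simp only [c₁]; group
        _ = c₂⁻¹ * c₁ := by rw [← hcomm _ hc₁ wb (hQX hwb), mul_inv_cancel_right]
    have hin : c₂⁻¹ * c₁ ∈ cl A (w * x) :=
      hval ▸ mul_mem (mul_mem (mul_mem h1 h2) (inv_mem h1)) (inv_mem h2)
    have hz : c₂⁻¹ * c₁ ∈ Zc := mul_mem (inv_mem hc₂) hc₁
    exact (inv_mul_eq_one.mp (hKZ _ (mem_gen (mul_mem (hQX hw) (hYX hx)) hin (hZfix hz)) hz)).symm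
  have hYzpow : ∀ (x : G), x ∈ Y → ∀ k : ℤ, a ^ k * x * (a ^ k)⁻¹ ∈ Y := fun x hx k =>
    conj_mem_of_le hAY (zpow_mem ha k) hx
  have key : ∀ w ∈ Q, ∀ x ∈ Y, w * (a * x * a⁻¹) * w⁻¹ * (a * x * a⁻¹)⁻¹ =
      w * (a⁻¹ * x * a) * w⁻¹ * (a⁻¹ * x * a)⁻¹ := by
    intro w hw x hx
    let F : ℤ → Additive Zc := fun k => Additive.ofMul
      ⟨w * (a ^ k * x * (a ^ k)⁻¹) * w⁻¹ * (a ^ k * x * (a ^ k)⁻¹)⁻¹,
        (hQ2 hw).2 _ (hYX (hYzpow x hx k))⟩
    have hval : ∀ k : ℤ, ∀ l : ℤ, ((Additive.toMul (F (l - k)) : Zc) : G) =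
        (a ^ k * w * (a ^ k)⁻¹) * (a ^ l * x * (a ^ l)⁻¹) * (a ^ k * w * (a ^ k)⁻¹)⁻¹ *
          (a ^ l * x * (a ^ l)⁻¹)⁻¹ := by
      intro k l
      have := hconjA (hQ2 hw) (hYX (hYzpow x hx (l - k))) (zpow_mem ha k)
      rw [show a ^ k * (a ^ (l - k) * x * (a ^ (l - k))⁻¹) * (a ^ k)⁻¹ =
        a ^ l * x * (a ^ l)⁻¹ by group] at this
      exact this.symm
    letI : IsMulCommutative Zc := ⟨⟨fun z z' => Subtype.ext (hcomm z z.2 z' z'.2.1)⟩⟩
    have expand : ∀ k l : ℤ, w⁻¹ * a ^ k * w * (a ^ k)⁻¹ ∈ Q → ∀ hxl : x⁻¹ * a ^ l * x * (a ^ l)⁻¹ ∈ Y,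
        (w⁻¹ * a ^ k * w * (a ^ k)⁻¹) * (x⁻¹ * a ^ l * x * (a ^ l)⁻¹) *
          (w⁻¹ * a ^ k * w * (a ^ k)⁻¹)⁻¹ * (x⁻¹ * a ^ l * x * (a ^ l)⁻¹)⁻¹ =
        ((Additive.toMul (F 0 - F l + (F (l - k) - F (-k))) : Zc) : G) := by
      intro k l _ _
      have hw2 := hQ2 hw
      have hw2k : a ^ k * w * (a ^ k)⁻¹ ∈ Z2 := conj_mem_of_le hAZ2 (zpow_mem ha k) hw2
      have hxX := hYX hx
      have hxl : a ^ l * x * (a ^ l)⁻¹ ∈ X := hYX (hYzpow x hx l)
      rw [show w⁻¹ * a ^ k * w * (a ^ k)⁻¹ = w⁻¹ * (a ^ k * w * (a ^ k)⁻¹) by group,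
        show x⁻¹ * a ^ l * x * (a ^ l)⁻¹ = x⁻¹ * (a ^ l * x * (a ^ l)⁻¹) by group,
        bil_left (inv_mem hw2) hw2k (mul_mem (inv_mem hxX) hxl),
        bil_right (inv_mem hw2) (inv_mem hxX) hxl, bil_right hw2k (inv_mem hxX) hxl,
        inv_right (inv_mem hw2) hxX, inv_left hw2 hxX, inv_inv, inv_left hw2 hxl,
        inv_right hw2k hxX, ← hval k l]
      have e0 := hval k 0
      rw [zero_sub, zpow_zero, one_mul, inv_one, mul_one] at e0
      rw [← e0]
      simp only [toMul_add, toMul_sub, coe_mul, coe_inv, F, toMul_ofMul, zpow_zero, one_mul,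
        inv_one, mul_one, div_eq_mul_inv]
      rw [hcomm _ (((inv_mem ((hQ2 hw).2 _ (hYX (hYzpow x hx (-k))))) : _ ∈ Zc)) _
        (hYX (hYzpow x hx 0) |> fun _ => ((hQ2 hw).2 _ (hYX (hYzpow x hx (l - k)))).1)]
    have hrel : ∀ j : ℤ, (F (j - 1) - F (-1)) - F j = (F (1 - j) - F (-j)) - F 1 := by
      intro j
      have h1 := pair w hw x hx (a ^ j) (zpow_mem ha j)
      have hQm : ∀ k : ℤ, w⁻¹ * a ^ k * w * (a ^ k)⁻¹ ∈ Q := fun k =>
        cl_le hAQ hw (gen_mem_cl (zpow_mem ha k))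
      have hYm : ∀ k : ℤ, x⁻¹ * a ^ k * x * (a ^ k)⁻¹ ∈ Y := fun k =>
        cl_le hAY hx (gen_mem_cl (zpow_mem ha k))
      have e1 := expand 1 j (hQm 1) (hYm j)
      have e2 := expand j 1 (hQm j) (hYm 1)
      rw [zpow_one] at e1 e2
      have h2 : F 0 - F j + (F (j - 1) - F (-1)) = F 0 - F 1 + (F (1 - j) - F (-j)) :=
        Additive.toMul.injective (Subtype.ext (e1.symm.trans (h1.trans e2)))
      rw [← sub_eq_zero] at h2 ⊢
      rw [← h2]; abel
    let D : ℤ → Additive Zc := fun k => F k - F (-k)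
    have hD : ∀ n : ℕ, D n = n • D 1 := by
      intro n
      induction n with
      | zero => simp [D]
      | succ n ih =>
        have h1 := hrel (n + 1)
        simp only [add_sub_cancel_right, show (1 : ℤ) - (n + 1) = -(n : ℤ) by ring] at h1
        have h2 : D ((n : ℤ) + 1) = D n + D 1 := by
          rw [← sub_eq_zero] at h1 ⊢
          rw [← neg_eq_zero, ← h1]
          simp only [D]
          abel
        push_cast
        rw [h2, ih, succ_nsmul]
    have hDp : D p = 0 := by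
      have e1 : a ^ (p : ℤ) = 1 := by rw [zpow_natCast, hap]
      have e2 : a ^ (-(p : ℤ)) = 1 := by rw [zpow_neg, e1, inv_one]
      simp only [D, F]
      simp [e1, e2]
    have hD1 : D 1 = 0 := by
      have h1 : (Additive.toMul (D 1)) ^ p = 1 := by
        have h2 := (hD p).symm.trans hDp
        exact congrArg Additive.toMul h2
      have hc' : (Nat.card Zc).Coprime p :=
        h.cop.coprime_dvd_left (card_dvd_of_le inf_le_left)
      have h3 : Additive.toMul (D 1) = 1 :=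
        (powCoprime hc').injective (by simpa [powCoprime_apply] using h1)
      exact congrArg Additive.ofMul h3
    have h4 : F 1 = F (-1) := sub_eq_zero.mp hD1
    have h5 := congrArg (fun i : Additive Zc => ((Additive.toMul i : Zc) : G)) h4
    simpa [F, zpow_neg] using h5
  have hsq : ∀ n : ℕ, ∀ w ∈ Q, ∀ x ∈ Y, w * ((a * a) ^ n * x * ((a * a) ^ n)⁻¹) * w⁻¹ *
      ((a * a) ^ n * x * ((a * a) ^ n)⁻¹)⁻¹ = w * x * w⁻¹ * x⁻¹ := by
    intro n
    induction n with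
    | zero => intro w _ x _; simp
    | succ n ih =>
      intro w hw x hx
      have hx1 : a * x * a⁻¹ ∈ Y := conj_mem_of_le hAY ha hx
      have h1 := key w hw _ hx1
      rw [show a⁻¹ * (a * x * a⁻¹) * a = x by group,
        show a * (a * x * a⁻¹) * a⁻¹ = (a * a) * x * (a * a)⁻¹ by group] at h1
      rw [← h1, ← ih w hw _ (conj_mem_of_le hAY (mul_mem ha ha) hx)]
      simp only [pow_succ]
      group
  refine hYnc (hyY.symm.le.trans ?_)
  show cl A y ≤ CQ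
  unfold cl
  rw [closure_le]
  rintro _ ⟨b, hb, rfl⟩
  haveI : Fact (Nat.card A).Prime := ⟨h.cardA ▸ h.prime⟩
  obtain ⟨n, hn⟩ : ∃ n : ℕ, (a * a) ^ n = b := by
    have htop := zpowers_eq_top_of_prime_card (G := A) (g := ⟨a * a, mul_mem ha ha⟩) rfl
      (fun h0 => ha2 (congrArg Subtype.val h0))
    have hbm : (⟨b, hb⟩ : A) ∈ zpowers (⟨a * a, mul_mem ha ha⟩ : A) := htop ▸ mem_top _
    obtain ⟨n, hn⟩ := mem_powers_iff_mem_zpowers.mpr hbm
    exact ⟨n, congrArg Subtype.val hn⟩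
  refine hCQ_mem (hYX (cl_le hAY hy (gen_mem_cl hb))) fun w hw => ?_
  have hw2 := hQ2 hw
  rw [show y⁻¹ * b * y * b⁻¹ = y⁻¹ * (b * y * b⁻¹) by group,
    bil_right hw2 (inv_mem (hYX hy)) (conj_mem_of_le h.norm hb (hYX hy)), inv_right hw2 (hYX hy),
    ← hn, hsq n w hw y hy, inv_mul_cancel]

end Cfsg.Agent.Lib.FixedGen
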