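import Cfsg.Agent.Lib.FixedGen.Basic
import Mathlib.GroupTheory.Sylow

/-! Common steps for the generation of fixed points of a coprime automorphism. -/

set_option autoImplicit false

namespace Cfsg.Agent.Lib.FixedGen

open scoped Pointwise commutatorElement
open Subgroup

universe u

variable {G : Type u} [Group G]

/-- The hypotheses of the inductive step. -/
structure Setup (p : ℕ) (A X : Subgroup G) : Prop where
  prime : p.Prime
  odd : p ≠ 2
  ih : HoldsBelow.{u} p (Nat.card X)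
  norm : A ≤ normalizer (X : Set G)
  solv : Group.IsSolvable X
  cop : (Nat.card X).Coprime p
  cardA : Nat.card A = p
  full : ⁅X, A⁆ = X

variable [Finite G] {p : ℕ} {A X : Subgroup G}

theorem Setup.copA (h : Setup p A X) {Y : Subgroup G} (hY : Y ≤ X) :
    (Nat.card A).Coprime (Nat.card Y) := by
  rw [h.cardA]; exact (h.cop.coprime_dvd_left (card_dvd_of_le hY)).symm

theorem Setup.solvLe (h : Setup p A X) {Y : Subgroup G} (hY : Y ≤ X) :
    Group.IsSolvable A ∨ Group.IsSolvable Y :=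
  Or.inr (Coprime.isSolvable_of_le hY h.solv)

theorem Setup.centralizer_of_mem (h : Setup p A X) {a x : G} (ha : a ∈ A) (ha1 : a ≠ 1)
    (hx : a * x = x * a) : x ∈ centralizer (A : Set G) := by
  haveI : Fact (Nat.card A).Prime := ⟨h.cardA ▸ h.prime⟩
  let S : Subgroup A := (centralizer {x}).subgroupOf A
  have haS : (⟨a, ha⟩ : A) ∈ S := by
    refine mem_subgroupOf.mpr (mem_centralizer_iff.mpr ?_)
    rintro _ rfl
    exact hx.symm
  rcases eq_bot_or_eq_top_of_prime_card S with h' | h'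
  · rw [h', mem_bot] at haS
    exact absurd (congrArg Subtype.val haS) ha1
  · rw [mem_centralizer_iff]
    intro b hb
    have : (⟨b, hb⟩ : A) ∈ S := h' ▸ mem_top _
    exact (mem_centralizer_iff.mp (mem_subgroupOf.mp this) x rfl).symm

/-- Some `a ∈ A` with `a ≠ 1` and `a * a ≠ 1`. -/
theorem Setup.exists_gen (h : Setup p A X) : ∃ a ∈ A, a ≠ 1 ∧ a * a ≠ 1 ∧ a ^ p = 1 := by
  haveI : Nontrivial A := Finite.one_lt_card_iff_nontrivial.mp (h.cardA ▸ h.prime.one_lt)
  obtain ⟨a, ha⟩ := exists_ne (1 : A)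
  have hp : a ^ p = 1 := h.cardA ▸ pow_card_eq_one'
  have ho : orderOf a = p := by
    haveI := Fact.mk h.prime
    exact orderOf_eq_prime hp ha
  refine ⟨a, a.2, fun h1 => ha (Subtype.ext h1), fun h2 => ?_,
    by simpa using congrArg Subtype.val hp⟩
  have h3 : a ^ 2 = 1 := Subtype.ext (by simpa [sq] using h2)
  have h4 := orderOf_dvd_of_pow_eq_one h3
  rw [ho] at h4
  exact h.odd ((Nat.prime_dvd_prime_iff_eq h.prime Nat.prime_two).mp h4)

theorem Setup.sub_step (h : Setup p A X) {Y : Subgroup G} (hY : Y ≤ X) (hne : Y ≠ X)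
    (hAY : A ≤ normalizer (Y : Set G)) : ⁅Y, A⁆ ⊓ centralizer (A : Set G) ≤ gen A X :=
  (h.ih G A Y (lt_of_le_of_ne (card_le_of_le hY) fun e => hne (eq_of_le_of_card_ge hY e.ge))
    hAY (Coprime.isSolvable_of_le hY h.solv) (h.cop.coprime_dvd_left (card_dvd_of_le hY))
    (h.cardA ▸ dvd_rfl)).trans (gen_mono hY)

theorem Setup.split (h : Setup p A X) {N : Subgroup G} (hNX : N ≤ X) (hN : N ≠ ⊥)
    (hXN : X ≤ normalizer (N : Set G)) (hAN : A ≤ normalizer (N : Set G)) {c : G} (hcX : c ∈ X)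
    (hc : c ∈ centralizer (A : Set G)) :
    ∃ k ∈ gen A X, ∃ n ∈ N ⊓ centralizer (A : Set G), c = k * n := by
  have h1 := quotient_step h.ih h.norm h.solv h.cop h.cardA h.full hNX hN hXN hAN ⟨hcX, hc⟩
  rw [← SetLike.mem_coe, coe_mul_of_left_le_normalizer_right _ _
    (((gen_le h.norm).trans inf_le_left).trans hXN)] at h1
  obtain ⟨k, hk, n, hn, rfl⟩ := h1
  refine ⟨k, hk, n, ⟨hn, ?_⟩, rfl⟩
  have hkc : k ∈ centralizer (A : Set G) := (gen_le h.norm hk).2
  simpa using mul_mem (inv_mem hkc) hc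

theorem Setup.of_inf_le (h : Setup p A X) {N : Subgroup G} (hNX : N ≤ X) (hN : N ≠ ⊥)
    (hXN : X ≤ normalizer (N : Set G)) (hAN : A ≤ normalizer (N : Set G))
    (hle : N ⊓ centralizer (A : Set G) ≤ gen A X) : X ⊓ centralizer (A : Set G) ≤ gen A X := by
  rintro c ⟨hcX, hc⟩
  obtain ⟨k, hk, n, hn, rfl⟩ := h.split hNX hN hXN hAN hcX hc
  exact mul_mem hk (hle hn)

/-- If `V` is abelian, commutators of fixed points lie in `gen A X`. -/
theorem Setup.commutator_fixed_mem (h : Setup p A X) {V : Subgroup G} [IsMulCommutative V]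
    (hVX : V ≤ X) (hV : V ≠ ⊥) (hXV : X ≤ normalizer (V : Set G))
    (hAV : A ≤ normalizer (V : Set G)) {c d : G} (hcX : c ∈ X)
    (hc : c ∈ centralizer (A : Set G)) (hdX : d ∈ X) (hd : d ∈ centralizer (A : Set G)) :
    c * d * c⁻¹ * d⁻¹ ∈ gen A X := by
  obtain ⟨k, hk, v, hv, rfl⟩ := h.split hVX hV hXV hAV hcX hc
  obtain ⟨l, hl, w, hw, rfl⟩ := h.split hVX hV hXV hAV hdX hd
  have hvw : v * w = w * v := congrArg Subtype.val (mul_comm' (⟨v, hv.1⟩ : V) ⟨w, hw.1⟩)
  have hconj : ∀ x ∈ X ⊓ centralizer (A : Set G), ∀ z ∈ gen A X, x * z * x⁻¹ ∈ gen A X :=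
    fun x hx z hz => conj_mem_gen hx.1 hx.2 hz
  have hv' : v ∈ X ⊓ centralizer (A : Set G) := ⟨hVX hv.1, hv.2⟩
  have hw' : w ∈ X ⊓ centralizer (A : Set G) := ⟨hVX hw.1, hw.2⟩
  have hvw' : v * w * v⁻¹ = w := by rw [hvw]; group
  have e : k * v * (l * w) * (k * v)⁻¹ * (l * w)⁻¹ =
      k * (v * l * v⁻¹) * ((v * w * v⁻¹) * k⁻¹ * w⁻¹) * l⁻¹ := by group
  rw [e, hvw']
  exact mul_mem (mul_mem (mul_mem hk (hconj v hv' l hl)) (hconj w hw' _ (inv_mem hk))) (inv_mem hl)

/-- If all invariant Sylow subgroups lie in `H`, so does `X`. -/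
theorem le_of_sylow_le {X H : Subgroup G} (hle : H ≤ X)
    (hS : ∀ q : ℕ, q.Prime → ∃ S : Sylow q X, (S : Subgroup X).map X.subtype ≤ H) : X ≤ H := by
  have htop : H.subgroupOf X = ⊤ := by
    rw [← index_eq_one]
    by_contra hne
    obtain ⟨q, hq, hdvd⟩ := Nat.exists_prime_and_dvd hne
    obtain ⟨S, hS⟩ := hS q hq
    haveI := Fact.mk hq
    have : (S : Subgroup X) ≤ H.subgroupOf X := fun x hx =>
      mem_subgroupOf.mpr (hS (mem_map_of_mem _ hx))
    exact S.not_dvd_index (hdvd.trans (index_dvd_of_le this))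
  exact subgroupOf_eq_top.mp htop

end Cfsg.Agent.Lib.FixedGen
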