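import Cfsg.Agent.Lib.FixedGen.Central

/-!
For an automorphism group `A` of odd prime order of a solvable group `X` of coprime order, the fixed
points of `[X, A]` are generated by those of the subgroups `[x, A]`.
-/

set_option autoImplicit false

namespace Cfsg.Agent.Lib.FixedGen

open scoped Pointwise commutatorElement
open Subgroup

universe u

theorem holdsBelow {p : ℕ} (hp : p.Prime) (hp2 : p ≠ 2) (n : ℕ) : HoldsBelow.{u} p n := by
  induction n with
  | zero => intro Q _ _ A X hn; omega
  | succ n ih =>
    intro G _ _ A X hn hAX hsol hcop hA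
    rcases (Nat.dvd_prime hp).mp hA with hA1 | hAp
    · rw [card_eq_one.mp hA1, commutator_bot_right, bot_inf_eq]
      exact bot_le
    have hn' : Nat.card X ≤ n := Nat.lt_succ_iff.mp hn
    have hle := Coprime.commutator_le_of_le_normalizer' hAX
    by_cases hfull : ⁅X, A⁆ = X
    swap
    · have hlt : Nat.card (⁅X, A⁆ : Subgroup G) < Nat.card X :=
        lt_of_le_of_ne (card_le_of_le hle) fun e => hfull (eq_of_le_of_card_ge hle e.ge)
      have h1 := ih G A ⁅X, A⁆ (hlt.trans_le hn') (Coprime.right_le_normalizer_commutator X A)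
        (Coprime.isSolvable_of_le hle hsol) (hcop.coprime_dvd_left (card_dvd_of_le hle)) hA
      rw [Coprime.commutator_commutator hAX (by rw [hAp]; exact hcop.symm) (Or.inr hsol)] at h1
      exact h1.trans (gen_mono hle)
    rw [hfull]
    have hs : Setup p A X :=
      ⟨hp, hp2, fun Q _ _ A' X' hlt => ih Q A' X' (hlt.trans_le hn'), hAX, hsol, hcop, hAp, hfull⟩
    by_cases hX : X = ⊥
    · rw [hX]; simp
    obtain ⟨V, hVmin⟩ := Set.Finite.exists_minimal
      (s := {V : Subgroup G | V ≤ X ∧ V ≠ ⊥ ∧ X ≤ normalizer (V : Set G) ∧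
        A ≤ normalizer (V : Set G)}) (Set.toFinite _) ⟨X, le_rfl, hX, le_normalizer, hAX⟩
    obtain ⟨hVX, hV, hXV, hAV⟩ := hVmin.prop
    have hmin : ∀ N : Subgroup G, N ≤ V → X ≤ normalizer (N : Set G) →
        A ≤ normalizer (N : Set G) → N = ⊥ ∨ N = V := fun N hN h1 h2 => by
      by_cases h0 : N = ⊥
      · exact Or.inl h0
      · exact Or.inr (le_antisymm hN (hVmin.2 ⟨hN.trans hVX, h0, h1, h2⟩ hN))
    haveI : IsMulCommutative V := by
      haveI : Group.IsSolvable V := Coprime.isSolvable_of_le hVX hsol
      haveI : Nontrivial V := (nontrivial_iff_ne_bot V).mpr hV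
      have hlt := IsSolvable.commutator_lt_top_of_nontrivial (G := V)
      rcases hmin ⁅V, V⁆ (commutator_le_self V) (le_normalizer_commutator_of hXV hXV)
        (le_normalizer_commutator_of hAV hAV) with h0 | h0
      · exact le_centralizer_iff_isMulCommutative.mp (commutator_eq_bot_iff_le_centralizer.mp h0)
      · exact absurd (map_injective V.subtype_injective (by
          rw [map_subtype_commutator, ← MonoidHom.range_eq_map, range_subtype, h0])) hlt.ne
    by_cases hc : V ≤ centralizer (X : Set G)
    · exact central hs hVX hV hXV hAV hmin hc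
    · exact noncentral hs hVX hV hXV hAV hmin hc

theorem fixed_eq_gen {G : Type u} [Group G] [Finite G] {p : ℕ} (hp : p.Prime) (hp2 : p ≠ 2)
    {A X : Subgroup G} (hA : Nat.card A = p) (hAX : A ≤ normalizer (X : Set G))
    (hsol : Group.IsSolvable X) (hcop : (Nat.card X).Coprime p) :
    ⁅X, A⁆ ⊓ centralizer (A : Set G) = gen A X :=
  le_antisymm (holdsBelow hp hp2 _ G A X (Nat.lt_succ_self _) hAX hsol hcop hA.dvd)
    (iSup₂_le fun _ hh => inf_le_inf_right _ (cl_le_commutator hh))

end Cfsg.Agent.Lib.FixedGen
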