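import Cfsg.Agent.Lib.FixedGen.Common
import Cfsg.Agent.Lib.FixedGen.Algebra
import Mathlib.GroupTheory.Nilpotent
import Mathlib.Algebra.Group.Hom.Instances
import Mathlib.Algebra.Group.TypeTags.Hom
import Mathlib.Algebra.Ring.Basic

/-! The inductive step when the minimal normal subgroup is not central. -/

set_option autoImplicit false

namespace Cfsg.Agent.Lib.FixedGen

open scoped Pointwise commutatorElement IsMulCommutative
open Subgroup

universe u

variable {G : Type u} [Group G] [Finite G] {p : ℕ} {A X : Subgroup G}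

theorem le_normalizer_commutator_of {H K L : Subgroup G} (hK : H ≤ normalizer (K : Set G))
    (hL : H ≤ normalizer (L : Set G)) : H ≤ normalizer ((⁅K, L⁆ : Subgroup G) : Set G) := by
  refine le_normalizer_of_conj_mem fun a ha x hx => ?_
  suffices h : ⁅K, L⁆ ≤ (⁅K, L⁆ : Subgroup G).comap (MulAut.conj a).toMonoidHom from h hx
  rw [commutator_le]
  intro k hk l hl
  show MulAut.conj a ⁅k, l⁆ ∈ ⁅K, L⁆
  rw [map_commutatorElement]
  exact commutator_mem_commutator (conj_mem_of_le hK ha hk) (conj_mem_of_le hL ha hl)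

/-- A nontrivial normal subgroup of a nilpotent subgroup meets its centre. -/
theorem inf_centralizer_ne_bot {X N : Subgroup G} [Group.IsNilpotent X] (hNX : N ≤ X)
    (hXN : X ≤ normalizer (N : Set G)) (hN : N ≠ ⊥) : N ⊓ centralizer (X : Set G) ≠ ⊥ := by
  intro h0
  obtain ⟨n, hn, hn1⟩ := (bot_or_exists_ne_one N).resolve_left hN
  haveI : (N.subgroupOf X).Normal := normal_subgroupOf_of_le_normalizer hXN
  have hne : N.subgroupOf X ≠ ⊥ := fun h => hn1 (by
    have : (⟨n, hNX hn⟩ : X) ∈ N.subgroupOf X := mem_subgroupOf.mpr hn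
    rw [h, mem_bot] at this
    exact congrArg Subtype.val this)
  have key : N.subgroupOf X ⊓ center X ≠ ⊥ := by
    classical
    obtain ⟨m, hm⟩ := (inferInstance : Group.IsNilpotent X).nilpotent
    have hex : ∃ j, N.subgroupOf X ⊓ Subgroup.upperCentralSeries X j ≠ ⊥ :=
      ⟨m, by rw [hm, inf_top_eq]; exact hne⟩
    obtain ⟨j, hj⟩ : ∃ j, Nat.find hex = j + 1 := by
      refine Nat.exists_eq_succ_of_ne_zero fun h => ?_
      have := Nat.find_spec hex
      rw [h] at this
      simp at this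
    have hspec := Nat.find_spec hex
    rw [hj] at hspec
    have hmin : N.subgroupOf X ⊓ Subgroup.upperCentralSeries X j = ⊥ :=
      not_not.mp (Nat.find_min hex (by omega))
    obtain ⟨z, hz, hz1⟩ := (bot_or_exists_ne_one _).resolve_left hspec
    intro hb
    refine hz1 (mem_bot.mp (hb ▸ ⟨hz.1, mem_center_iff.mpr fun g => ?_⟩))
    have h2 : z * g * z⁻¹ * g⁻¹ ∈ N.subgroupOf X ⊓ Subgroup.upperCentralSeries X j := by
      refine ⟨?_, Subgroup.mem_upperCentralSeries_succ_iff.mp hz.2 g⟩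
      rw [mul_assoc, mul_assoc, ← mul_assoc g]
      exact mul_mem hz.1 (Subgroup.Normal.conj_mem inferInstance _ (inv_mem hz.1) g)
    rw [hmin, mem_bot, mul_inv_eq_one, mul_inv_eq_iff_eq_mul] at h2
    exact h2.symm
  obtain ⟨z, hz, hz1⟩ := (bot_or_exists_ne_one _).resolve_left key
  refine hz1 ?_
  have h2 : (z : G) ∈ N ⊓ centralizer (X : Set G) := by
    refine ⟨mem_subgroupOf.mp hz.1, ?_⟩
    show (z : G) ∈ centralizer (X : Set G)
    rw [mem_centralizer_iff]
    intro x hx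
    exact congrArg Subtype.val (mem_center_iff.mp hz.2 ⟨x, hx⟩)
  rw [h0, mem_bot] at h2
  exact Subtype.ext h2

theorem noncentral (h : Setup p A X) {V : Subgroup G} [IsMulCommutative V] (hVX : V ≤ X)
    (hV : V ≠ ⊥) (hXV : X ≤ normalizer (V : Set G)) (hAV : A ≤ normalizer (V : Set G))
    (hmin : ∀ N : Subgroup G, N ≤ V → X ≤ normalizer (N : Set G) →
      A ≤ normalizer (N : Set G) → N = ⊥ ∨ N = V)
    (hnc : ¬ V ≤ centralizer (X : Set G)) : X ⊓ centralizer (A : Set G) ≤ gen A X := by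
  classical
  haveI : Fintype A := Fintype.ofFinite A
  by_cases hVK : V ⊓ centralizer (A : Set G) ≤ gen A X
  · exact h.of_inf_le hVX hV hXV hAV hVK
  exfalso
  let τ : V →* V := Coprime.lineProd (Coprime.conjHom hAV) ⊤
  have hτfix : ∀ w : V, (τ w : G) ∈ centralizer (A : Set G) := by
    intro w
    rw [mem_centralizer_iff]
    intro a ha
    have := congrArg Subtype.val
      (Coprime.apply_lineProd (Coprime.conjHom hAV) ⊤ (b := ⟨a, ha⟩) (mem_top _) w)
    rw [Coprime.coe_conjHom_apply] at this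
    exact mul_inv_eq_iff_eq_mul.mp this
  have hτapply : ∀ w : V, τ w = ∏ a : A, Coprime.conjHom hAV a w := by
    intro w
    simp [τ, Coprime.lineProd_apply]
  let φ : X →* MulAut V := Coprime.conjHom hXV
  let T0 : Subgroup X :=
    { carrier := {y | ∀ w : V, (τ (w * φ y w⁻¹) : G) ∈ gen A X}
      one_mem' := fun w => by simp
      mul_mem' := fun {y z} hy hz w => by
        have e : w * φ (y * z) w⁻¹ = (w * φ z w⁻¹) * (φ z w * φ y (φ z w)⁻¹) := by
          simp only [map_mul, MulAut.mul_apply, map_inv]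
          group
        rw [e, map_mul, coe_mul]
        exact mul_mem (hz w) (hy _)
      inv_mem' := fun {y} hy w => by
        have hw : φ y (φ y⁻¹ w) = w := by rw [← MulAut.mul_apply, ← map_mul]; simp
        have e : w * φ y⁻¹ w⁻¹ = (φ y⁻¹ w * φ y (φ y⁻¹ w)⁻¹)⁻¹ := by
          simp only [map_inv (φ y), hw]
          simp [mul_comm]
        rw [e, map_inv, coe_inv]
        exact inv_mem (hy _) }
  let T : Subgroup G := T0.map X.subtype
  have hT : ∀ {y : G} (hy : y ∈ X), y ∈ T ↔ (⟨y, hy⟩ : X) ∈ T0 := by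
    intro y hy
    constructor
    · rintro ⟨z, hz, rfl⟩; exact hz
    · exact fun h' => ⟨_, h', rfl⟩
  -- `[V, Y] ≠ V` for `Y ≤ T`
  have fin : ∀ Y : Subgroup G, Y ≤ T → ⁅V, Y⁆ ≠ V := by
    intro Y hY heq
    let good : Subgroup V := ((gen A X).subgroupOf V).comap τ
    have hgood : ⁅V, Y⁆ ≤ good.map V.subtype := by
      rw [commutator_le]
      intro v hv y hy
      obtain ⟨⟨y', hy'X⟩, hy', rfl⟩ := hY hy
      refine ⟨⟨v, hv⟩ * φ ⟨y', hy'X⟩ ⟨v, hv⟩⁻¹, mem_subgroupOf.mpr (hy' _), ?_⟩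
      simp [φ, Coprime.coe_conjHom_apply, commutatorElement_def, mul_assoc]
    refine hVK ?_
    rintro c ⟨hcV, hc⟩
    have hcg : c ∈ good.map V.subtype := hgood (by rw [heq]; exact hcV)
    obtain ⟨c', hc', rfl⟩ := hcg
    have e : τ c' = c' ^ Nat.card A := Coprime.lineProd_top_of_fixed _ fun a => Subtype.ext (by
      rw [Coprime.coe_conjHom_apply]
      exact mul_inv_eq_iff_eq_mul.mpr (mem_centralizer_iff.mp hc a a.2))
    have h1 : ((c' : G)) ^ p ∈ gen A X := by
      have := mem_subgroupOf.mp (show τ c' ∈ (gen A X).subgroupOf V from hc')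
      rwa [e, h.cardA, SubmonoidClass.coe_pow] at this
    obtain ⟨m, hm⟩ := exists_pow_eq_self_of_coprime (x := (c' : G)) (n := p)
      ((h.cop.coprime_dvd_left (((orderOf_coe c').dvd.trans (orderOf_dvd_natCard c')).trans
        (card_dvd_of_le hVX))).symm)
    rw [coe_subtype, ← hm]
    exact pow_mem h1 m
  have hCT : X ⊓ centralizer (A : Set G) ≤ T := by
    rintro z ⟨hzX, hz⟩
    rw [hT hzX]
    intro w
    have heq : τ (φ ⟨z, hzX⟩ w) = φ ⟨z, hzX⟩ (τ w) := by
      rw [hτapply, hτapply, map_prod]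
      refine Finset.prod_congr rfl fun a _ => Subtype.ext ?_
      simp only [φ, Coprime.coe_conjHom_apply]
      have hca : z * (a : G) = a * z := (mem_centralizer_iff.mp hz a a.2).symm
      calc (a : G) * (z * (w : G) * z⁻¹) * (a : G)⁻¹
          = (a : G) * z * (w : G) * ((a : G) * z)⁻¹ := by group
        _ = z * (a : G) * (w : G) * (z * (a : G))⁻¹ := by rw [hca]
        _ = _ := by group
    rw [map_mul, map_inv (φ _), map_inv, heq, coe_mul, coe_inv]
    simp only [φ, Coprime.coe_conjHom_apply]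
    have := h.commutator_fixed_mem (V := V) hVX hV hXV hAV (hVX (τ w).2) (hτfix w) hzX hz
    convert this using 1
    group
  have hprop : ∀ Y : Subgroup G, Y ≤ X → A ≤ normalizer (Y : Set G) → V ⊔ Y ≠ X → Y ≤ T := by
    intro Y hYX hAY hne
    rw [← Coprime.commutator_sup_centralizer hAY (h.copA hYX) (h.solvLe hYX)]
    refine sup_le (fun y hy => ?_) ((inf_le_inf_right _ hYX).trans hCT)
    have hyX : y ∈ X := hYX (Coprime.commutator_le_of_le_normalizer' hAY hy)
    rw [hT hyX]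
    intro w
    let Z : Subgroup G := ⁅V ⊔ Y, A⁆
    have hAVY := le_normalizer_sup hAV hAY
    have hyZ : y ∈ Z := commutator_mono le_sup_right le_rfl hy
    have he : ((w * φ ⟨y, hyX⟩ w⁻¹ : V) : G) ∈ Z := by
      have h1 : (w : G) * y * (w : G)⁻¹ ∈ Z :=
        conj_mem_of_le (Coprime.left_le_normalizer_commutator (V ⊔ Y) A) (mem_sup_left w.2) hyZ
      have h2 := mul_mem h1 (inv_mem hyZ)
      simpa [φ, Coprime.coe_conjHom_apply, mul_assoc] using h2
    refine h.sub_step (sup_le hVX hYX) hne hAVY ⟨?_, hτfix _⟩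
    rw [hτapply]
    show _ ∈ Z
    rw [← mem_subgroupOf (H := Z) (K := V)]
    refine prod_mem fun a _ => mem_subgroupOf.mpr ?_
    rw [Coprime.coe_conjHom_apply]
    exact conj_mem_of_le (Coprime.right_le_normalizer_commutator _ A) a.2 he
  have hVT : V ≤ T := by
    intro v hv
    rw [hT (hVX hv)]
    intro w
    have e : w * φ ⟨v, hVX hv⟩ w⁻¹ = 1 := by
      have e1 : φ ⟨v, hVX hv⟩ w⁻¹ = ⟨v, hv⟩ * w⁻¹ * ⟨v, hv⟩⁻¹ := Subtype.ext (by
        simp only [φ, Coprime.coe_conjHom_apply, coe_mul, coe_inv])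
      rw [e1, mul_comm (⟨v, hv⟩ : V), mul_inv_cancel_right, mul_inv_cancel]
    rw [e, map_one, coe_one]
    exact one_mem _
  have hVXc : ⁅V, X⁆ = V := by
    rcases hmin ⁅V, X⁆ (Coprime.commutator_le_of_le_normalizer' hXV)
      (Coprime.right_le_normalizer_commutator V X)
      (le_normalizer_commutator_of hAV h.norm) with h0 | h0
    · exact absurd (commutator_eq_bot_iff_le_centralizer.mp h0) hnc
    · exact h0
  have hnotT : ¬ X ≤ T := fun hle => fin X hle hVXc
  -- a Sylow subgroup covering `X / V`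
  obtain ⟨q, hq, P, hPA, hP⟩ : ∃ q : ℕ, q.Prime ∧ ∃ P : Sylow q X,
      A ≤ normalizer (((P : Subgroup X).map X.subtype : Subgroup G) : Set G) ∧
      ¬ (P : Subgroup X).map X.subtype ≤ T := by
    by_contra hne
    push Not at hne
    refine hnotT (le_of_sylow_le (Subgroup.map_subtype_le T0) fun q hq => ?_)
    haveI := Fact.mk hq
    obtain ⟨P, hP⟩ := Coprime.exists_invariant_sylow h.norm (h.copA le_rfl) (h.solvLe le_rfl) q
    exact ⟨P, hne q hq P hP⟩
  haveI := Fact.mk hq
  let P0 : Subgroup G := (P : Subgroup X).map X.subtype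
  have hP0X : P0 ≤ X := map_subtype_le _
  have hP0cov : V ⊔ P0 = X := by
    by_contra hne
    exact hP (hprop P0 hP0X hPA hne)
  obtain ⟨S, hSmin⟩ := Set.Finite.exists_minimal
    (s := {S : Subgroup G | S ≤ P0 ∧ A ≤ normalizer (S : Set G) ∧ V ⊔ S = X}) (Set.toFinite _)
    ⟨P0, le_rfl, hPA, hP0cov⟩
  obtain ⟨hSP, hAS, hScov⟩ := hSmin.prop
  have hSX : S ≤ X := hSP.trans hP0X
  have hSq : IsPGroup q S := (P.2.map X.subtype).to_le hSP
  haveI : Group.IsNilpotent S := hSq.isNilpotent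
  have hXle : ∀ {W : Subgroup G}, V ≤ W → S ≤ W → X ≤ W := fun h1 h2 => hScov ▸ sup_le h1 h2
  have hVS : V ⊓ S = ⊥ := by
    have hVn : V ≤ normalizer ((V ⊓ S : Subgroup G) : Set G) :=
      le_normalizer_of_conj_mem fun v hv x hx => by
        rwa [show v * x = x * v from congrArg Subtype.val (mul_comm' (⟨v, hv⟩ : V) ⟨x, hx.1⟩),
          mul_inv_cancel_right]
    rcases hmin (V ⊓ S) inf_le_left (hXle hVn
      (le_normalizer_inf (hSX.trans hXV) le_normalizer)) (le_normalizer_inf hAV hAS) with h0 | h0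
    · exact h0
    · exfalso
      have hXS : X = S := le_antisymm (hXle (h0 ▸ inf_le_right) le_rfl) hSX
      haveI : Group.IsNilpotent X := by rw [hXS]; infer_instance
      have hne := inf_centralizer_ne_bot hVX hXV hV
      rcases hmin (V ⊓ centralizer (X : Set G)) inf_le_left
        (le_normalizer_inf hXV (le_normalizer.trans (Coprime.normalizer_le_normalizer_centralizer X)))
        (le_normalizer_inf hAV (h.norm.trans (Coprime.normalizer_le_normalizer_centralizer X))) with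
        h1 | h1
      · exact hne h1
      · exact hnc (h1 ▸ inf_le_right)
  have hSnotT : ¬ S ≤ T := fun hle => hnotT (hXle hVT hle)
  let M : Subgroup G := ⨆ Y : {Y : Subgroup G // Y ≤ S ∧ Y ≠ S ∧ A ≤ normalizer (Y : Set G)}, Y.1
  have hMS : M ≤ S := iSup_le fun Y => Y.2.1
  have hAM : A ≤ normalizer (M : Set G) := le_normalizer_iSup fun Y => Y.2.2.2
  have hleM : ∀ Y : Subgroup G, Y ≤ S → Y ≠ S → A ≤ normalizer (Y : Set G) → Y ≤ M :=
    fun Y h1 h2 h3 => le_iSup_of_le ⟨Y, h1, h2, h3⟩ le_rfl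
  have hMT : M ≤ T := iSup_le fun Y => hprop Y.1 (Y.2.1.trans hSX) Y.2.2.2 fun hcov =>
    Y.2.2.1 (le_antisymm Y.2.1 (hSmin.2 ⟨Y.2.1.trans hSP, Y.2.2.2, hcov⟩ Y.2.1))
  have hSCne : S ⊓ centralizer (A : Set G) ≠ S := fun h0 =>
    hSnotT (h0.symm.le.trans ((inf_le_inf_right _ hSX).trans hCT))
  have hCM : S ⊓ centralizer (A : Set G) ≤ M := hleM _ inf_le_left hSCne
    (le_normalizer_inf hAS (le_normalizer.trans (Coprime.normalizer_le_normalizer_centralizer A)))
  obtain ⟨u, huS, hu⟩ : ∃ u ∈ S, cl A u = S := by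
    by_contra hne
    push Not at hne
    refine hSnotT ?_
    rw [← Coprime.commutator_sup_centralizer hAS (h.copA hSX) (h.solvLe hSX)]
    refine sup_le ((commutator_le_of_cl fun x hx => ?_).trans hMT)
      ((inf_le_inf_right _ hSX).trans hCT)
    exact hleM _ (cl_le hAS hx) (hne x hx) (le_normalizer_cl A x)
  have hSK : S ⊓ centralizer (A : Set G) ≤ gen A X := hu ▸ le_gen (hSX huS)
  have hMne : M ≠ S := fun h0 => hSnotT (h0 ▸ hMT)
  have hSM : S ≤ normalizer (M : Set G) := by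
    by_contra hne
    have hle : S ⊓ normalizer (M : Set G) ≤ M := hleM _ inf_le_left
      (fun h0 => hne (h0.symm.le.trans inf_le_right)) (le_normalizer_inf hAS (hAM.trans le_normalizer))
    have hlt : M.subgroupOf S < ⊤ := lt_top_iff_ne_top.mpr fun h0 =>
      hMne (le_antisymm hMS (subgroupOf_eq_top.mp h0))
    refine (normalizerCondition_of_isNilpotent _ hlt).not_ge ?_
    intro x hx
    refine mem_subgroupOf.mpr (hle (mem_inf.mpr ⟨x.2, ?_⟩))
    rw [mem_normalizer_iff]
    intro y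
    constructor <;> intro hy
    · have h1 := (mem_normalizer_iff.mp hx ⟨y, hMS hy⟩).mp (mem_subgroupOf.mpr hy)
      simpa using mem_subgroupOf.mp h1
    · have hyS : y ∈ S := by
        have := S.mul_mem (S.mul_mem (S.inv_mem x.2) (hMS hy)) x.2
        simpa [mul_assoc] using this
      exact mem_subgroupOf.mp ((mem_normalizer_iff.mp hx ⟨y, hyS⟩).mpr (mem_subgroupOf.mpr hy))
  by_cases hM : M = ⊥
  swap
  · rcases hmin ⁅V, M⁆ (Coprime.commutator_le_of_le_normalizer' ((hMS.trans hSX).trans hXV))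
      (hXle (Coprime.left_le_normalizer_commutator V M)
        (le_normalizer_commutator_of (hSX.trans hXV) hSM))
      (le_normalizer_commutator_of hAV hAM) with h0 | h0
    · have hXM : X ≤ normalizer (M : Set G) := by
        refine hXle (fun v hv => ?_) hSM
        have hc : ∀ m ∈ M, v * m = m * v := fun m hm =>
          (mem_centralizer_iff.mp (commutator_eq_bot_iff_le_centralizer.mp h0 hv) m hm).symm
        refine le_normalizer_of_conj_mem (A := zpowers v) (fun a ha m hm => ?_) (mem_zpowers v)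
        obtain ⟨j, rfl⟩ := mem_zpowers_iff.mp ha
        have hcj : v ^ j * m = m * v ^ j :=
          (Commute.zpow_left (show Commute v m from hc m hm) j).eq
        rwa [hcj, mul_inv_cancel_right]
      exact hVK ((inf_le_inf_right _ hVX).trans (h.of_inf_le (hMS.trans hSX) hM hXM hAM
        ((inf_le_inf_right _ hMS).trans hSK)))
    · exact fin M hMT h0
  -- `S` is abelian with no proper nontrivial invariant subgroup
  have hSne : S ≠ ⊥ := fun h0 => hSnotT (h0 ▸ bot_le)
  have hSab : ∀ x ∈ S, ∀ y ∈ S, x * y = y * x := by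
    haveI : Nontrivial S := (nontrivial_iff_ne_bot S).mpr hSne
    have hlt := IsSolvable.commutator_lt_top_of_nontrivial (G := S)
    have hne : ⁅S, S⁆ ≠ S := fun h0 => hlt.ne (map_injective S.subtype_injective (by
      rw [map_subtype_commutator, ← MonoidHom.range_eq_map, range_subtype, h0]))
    have hb : ⁅S, S⁆ = ⊥ := le_bot_iff.mp (hM ▸ hleM _ (commutator_le_self S) hne
      (le_normalizer_commutator_of hAS hAS))
    intro x hx y hy
    have := commutator_mem_commutator (H₁ := S) (H₂ := S) hx hy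
    rw [hb, mem_bot] at this
    exact commutatorElement_eq_one_iff_mul_comm.mp this
  have hfixS : ∀ d ∈ A, d ≠ 1 → ∀ x ∈ S, d * x = x * d → x = 1 := fun d hd hd1 x hx hdx =>
    mem_bot.mp (hM ▸ hCM ⟨hx, h.centralizer_of_mem hd hd1 hdx⟩)
  have hL : ∀ w ∈ V, V ⊓ cl A (u * w) = ⊥ := by
    intro w hw
    have hXcl : X ≤ V ⊔ cl A (u * w) := by
      refine hXle le_sup_left ?_
      rw [← hu]
      unfold cl
      rw [closure_le]
      rintro _ ⟨a, ha, rfl⟩
      show u⁻¹ * a * u * a⁻¹ ∈ V ⊔ cl A (u * w)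
      have e : u⁻¹ * a * u * a⁻¹ = w * ((u * w)⁻¹ * a * (u * w) * a⁻¹) * (a * w⁻¹ * a⁻¹) := by
        group
      rw [e]
      exact mul_mem (mul_mem (mem_sup_left hw) (mem_sup_right (gen_mem_cl ha)))
        (mem_sup_left (conj_mem_of_le hAV ha (inv_mem hw)))
    have hnorm : X ≤ normalizer ((V ⊓ cl A (u * w) : Subgroup G) : Set G) := by
      refine hXcl.trans (sup_le ?_ ?_)
      · refine le_normalizer_of_conj_mem fun v hv x hx => ?_
        rwa [show v * x = x * v from congrArg Subtype.val (mul_comm' (⟨v, hv⟩ : V) ⟨x, hx.1⟩),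
          mul_inv_cancel_right]
      · exact le_normalizer_inf ((cl_le h.norm (mul_mem (hSX huS) (hVX hw))).trans hXV) le_normalizer
    rcases hmin _ inf_le_left hnorm (le_normalizer_inf hAV (le_normalizer_cl A _)) with h0 | h0
    · exact h0
    · exact absurd ((inf_le_inf_right _ (h0.symm.le.trans inf_le_right)).trans
        (le_gen (mul_mem (hSX huS) (hVX hw)))) hVK
  -- operators on `V`
  obtain ⟨a, ha, ha1, ha2, -⟩ := h.exists_gen
  let Nv : Subgroup G := normalizer (V : Set G)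
  let φN : Nv →* MulAut V := Coprime.conjHom le_rfl
  let ρ : Nv →* AddMonoid.End (Additive V) :=
    { toFun := fun g => MonoidHom.toAdditive (φN g).toMonoidHom
      map_one' := by ext x; simp; rfl
      map_mul' := fun g g' => by ext x; simp; rfl }
  have hSN : S ≤ Nv := hSX.trans hXV
  let a' : Nv := ⟨a, hAV ha⟩
  let b' : Nv := a' * a'
  have hb : (b' : G) = a * a := rfl
  have hbA : a * a ∈ A := A.mul_mem ha ha
  let sE : G → G → G := fun t d => t⁻¹ * d * t * d⁻¹
  have hsE : ∀ t ∈ S, ∀ d ∈ A, sE t d ∈ S := fun t ht d hd =>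
    cl_le hAS ht (gen_mem_cl hd)
  let s' : (t : G) → t ∈ S → (d : G) → d ∈ A → Nv := fun t ht d hd => ⟨sE t d, hSN (hsE t ht d hd)⟩
  have hcomm : ∀ x y : Nv, (x : G) ∈ S → (y : G) ∈ S → ρ x * ρ y = ρ y * ρ x := fun x y hx hy => by
    rw [← map_mul, ← map_mul, show x * y = y * x from Subtype.ext (hSab _ hx _ hy)]
  let P' : Nv := s' u huS a ha
  let Q' : Nv := s' u huS (a * a) hbA
  have hPS : (P' : G) ∈ S := hsE u huS a ha
  have hQS : (Q' : G) ∈ S := hsE u huS _ hbA
  have heq : ρ P' * ρ a' - ρ Q' * ρ P' * ρ a' + ρ Q' =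
      ρ Q' * ρ b' - ρ P' * ρ Q' * ρ b' + ρ P' := by
    refine AddMonoidHom.ext fun v => ?_
    let w : V := Additive.toMul v
    let xa : V := w⁻¹ * φN P' (φN a' w)
    let xb : V := w⁻¹ * φN Q' (φN b' w)
    have hga : (u * (w : G))⁻¹ * a * (u * w) * a⁻¹ = (xa : G) * P' := by
      simp only [xa, φN, P', s', sE, a', coe_mul, coe_inv, Coprime.coe_conjHom_apply]
      group
    have hgb : (u * (w : G))⁻¹ * (a * a) * (u * w) * (a * a)⁻¹ = (xb : G) * Q' := by
      simp only [xb, φN, Q', s', sE, b', a', coe_mul, coe_inv, Coprime.coe_conjHom_apply]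
      group
    have hl : (xa : G) * P' * ((xb : G) * Q') * ((xa : G) * P')⁻¹ * ((xb : G) * Q')⁻¹ = 1 := by
      have hx : (P' : G) * Q' = Q' * P' := hSab _ hPS _ hQS
      have h1 : (xa : G) * P' ∈ cl A (u * (w : G)) := hga ▸ gen_mem_cl ha
      have h2 : (xb : G) * Q' ∈ cl A (u * (w : G)) := hgb ▸ gen_mem_cl hbA
      refine mem_bot.mp (hL w w.2 ▸ mem_inf.mpr
        ⟨?_, mul_mem (mul_mem (mul_mem h1 h2) (inv_mem h1)) (inv_mem h2)⟩)
      have e : (xa : G) * P' * ((xb : G) * Q') * ((xa : G) * P')⁻¹ * ((xb : G) * Q')⁻¹ =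
          (xa : G) * ((φN P' xb : V) : G) * (((P' : G) * Q') * ((Q' : G) * P')⁻¹) *
            ((φN Q' xa : V) : G)⁻¹ * (xb : G)⁻¹ := by
        simp only [φN, Coprime.coe_conjHom_apply]; group
      rw [e, hx, mul_inv_cancel, mul_one]
      exact mul_mem (mul_mem (mul_mem xa.2 (φN P' xb).2) (inv_mem (φN Q' xa).2)) (inv_mem xb.2)
    have hl2 : xa * φN P' xb = xb * φN Q' xa := by
      apply Subtype.ext
      simp only [coe_mul, φN, Coprime.coe_conjHom_apply]
      have hx : (P' : G) * Q' = Q' * P' := hSab _ hPS _ hQS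
      rw [mul_inv_eq_one, mul_inv_eq_iff_eq_mul] at hl
      calc (xa : G) * ((P' : G) * xb * (P' : G)⁻¹)
          = (xa : G) * P' * ((xb : G) * Q') * ((P' : G) * Q')⁻¹ := by group
        _ = (xb : G) * Q' * ((xa : G) * P') * ((Q' : G) * P')⁻¹ := by rw [hl, hx]
        _ = _ := by group
    have h3 := congrArg Additive.ofMul hl2
    simp only [xa, xb, map_mul, map_inv, ofMul_mul, ofMul_inv] at h3
    show ρ P' (ρ a' v) - ρ Q' (ρ P' (ρ a' v)) + ρ Q' v =
      ρ Q' (ρ b' v) - ρ P' (ρ Q' (ρ b' v)) + ρ P' v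
    change (-v + ρ P' (ρ a' v)) + (-ρ P' v + ρ P' (ρ Q' (ρ b' v))) =
      (-v + ρ Q' (ρ b' v)) + (-ρ Q' v + ρ Q' (ρ P' (ρ a' v))) at h3
    rw [← sub_eq_zero] at h3 ⊢
    rw [← h3]
    abel
  have htw : ∀ t (ht : t ∈ S) (d : G) (hd : d ∈ A),
      ρ ⟨t, hSN ht⟩⁻¹ * ρ ⟨d, hAV hd⟩ * ρ ⟨t, hSN ht⟩ = ρ (s' t ht d hd) * ρ ⟨d, hAV hd⟩ := by
    intro t ht d hd
    rw [← map_mul, ← map_mul, ← map_mul]
    congr 1
    apply Subtype.ext
    simp [s', sE, mul_assoc]
  have hinvS : ∀ {x : Nv}, (x : G) ∈ S → ((x⁻¹ : Nv) : G) ∈ S := fun hx => S.inv_mem hx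
  have hρinv : ∀ x : Nv, ρ x⁻¹ * ρ x = 1 := fun x => by rw [← map_mul, inv_mul_cancel, map_one]
  have haUnit : ∀ x : Nv, IsUnit (ρ x) := fun x => (Group.isUnit x).map ρ
  let L : G → AddMonoid.End (Additive V) → AddMonoid.End (Additive V) :=
    fun _ ca => (1 - ρ Q') * ρ P' * (ca - 1)
  have key : ∀ x ∈ S, ∀ y ∈ S, ∀ (hx' : x ∈ Nv) (hy' : y ∈ Nv),
      (ρ ⟨x, hx'⟩ - 1) * ((ρ ⟨y, hy'⟩ - 1) * (1 - ρ Q')) = 0 := by
    have hsurj : ∀ d ∈ A, d ≠ 1 → ∀ x ∈ S, ∃ t ∈ S, sE t d = x := by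
      intro d hd hd1 x hx
      let f : S → S := fun t => ⟨sE t d, hsE t t.2 d hd⟩
      have hinj : Function.Injective f := by
        intro t1 t2 h12
        have h12' : sE t1 d = sE t2 d := congrArg Subtype.val h12
        have e : d * ((t1 : G) * (t2 : G)⁻¹) * d⁻¹ = (t1 : G) * (t2 : G)⁻¹ := by
          have e1 : d * (t1 : G) * d⁻¹ = t1 * sE t1 d := by simp only [sE]; group
          have e2 : d * (t2 : G)⁻¹ * d⁻¹ = (sE t2 d)⁻¹ * (t2 : G)⁻¹ := by simp only [sE]; group
          calc d * ((t1 : G) * (t2 : G)⁻¹) * d⁻¹ = (d * t1 * d⁻¹) * (d * (t2 : G)⁻¹ * d⁻¹) := by group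
            _ = _ := by rw [e1, e2, h12']; group
        have h1 := hfixS d hd hd1 _ (mul_mem t1.2 (inv_mem t2.2)) (mul_inv_eq_iff_eq_mul.mp e)
        exact Subtype.ext (mul_inv_eq_one.mp h1)
      obtain ⟨t, ht⟩ := (Finite.injective_iff_surjective.mp hinj) ⟨x, hx⟩
      exact ⟨t, t.2, congrArg Subtype.val ht⟩
    intro x hx y hy hx' hy'
    obtain ⟨t, ht, htx⟩ := hsurj a ha ha1 x hx
    -- `y` as a quotient of the two twists
    have hy1 : (a * a)⁻¹ * y * (a * a) ∈ S := inv_conj_mem_of_le hAS hbA hy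
    obtain ⟨r, hr, hry⟩ := hsurj a⁻¹ (A.inv_mem ha) (inv_ne_one.mpr ha1) _ hy1
    let ca := ρ (s' t ht a ha)
    let cb := ρ (s' t ht (a * a) hbA)
    have hst : ∀ d (hd : d ∈ A), ((s' t ht d hd : Nv) : G) ∈ S := fun d hd => hsE t ht d hd
    have hsr : ∀ d (hd : d ∈ A), ((s' r hr d hd : Nv) : G) ∈ S := fun d hd => hsE r hr d hd
    have h1 : (1 - ρ Q') * ρ P' * (ca - 1) * ρ a' = (1 - ρ P') * ρ Q' * (cb - 1) * ρ b' :=
      twist_sub heq (hcomm _ _ (hinvS (x := ⟨t, hSN ht⟩) ht) hPS)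
        (hcomm _ _ (hinvS (x := ⟨t, hSN ht⟩) ht) hQS) (hρinv _) (htw t ht a ha)
        (htw t ht (a * a) hbA)
    have hcomL : ∀ z : Nv, (z : G) ∈ S →
        ρ z * ((1 - ρ Q') * ρ P' * (ca - 1)) = (1 - ρ Q') * ρ P' * (ca - 1) * ρ z :=
      fun z hz => (((Commute.one_right _).sub_right (hcomm _ _ hz hQS)).mul_right
        (hcomm _ _ hz hPS) |>.mul_right
          ((show Commute (ρ z) ca from hcomm _ _ hz (hst _ (by assumption))).sub_right (Commute.one_right _))).eq
    have hcomM : ∀ z : Nv, (z : G) ∈ S →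
        ρ z * ((1 - ρ P') * ρ Q' * (cb - 1)) = (1 - ρ P') * ρ Q' * (cb - 1) * ρ z :=
      fun z hz => (((Commute.one_right _).sub_right (hcomm _ _ hz hPS)).mul_right
        (hcomm _ _ hz hQS) |>.mul_right
          ((show Commute (ρ z) cb from hcomm _ _ hz (hst _ hbA)).sub_right (Commute.one_right _))).eq
    have h2 := twist_factor h1 (hcomL _ (hinvS (x := ⟨r, hSN hr⟩) hr))
      (hcomM _ (hinvS (x := ⟨r, hSN hr⟩) hr)) (hcomM _ (hsr _ hbA)) (hcomL _ (hsr _ hbA))
      (htw r hr a ha) (htw r hr (a * a) hbA) (haUnit a')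
    have hxe : s' t ht a ha = ⟨x, hx'⟩ := Subtype.ext htx
    have hye : s' r hr a ha = s' r hr (a * a) hbA * ⟨y, hy'⟩ := by
      apply Subtype.ext
      have : y = a * a * sE r a⁻¹ * (a * a)⁻¹ := by rw [hry]; group
      simp only [s', coe_mul]
      rw [this]
      simp only [sE]
      group
    rw [hye, map_mul] at h2
    rw [show ca = ρ ⟨x, hx'⟩ from congrArg ρ hxe] at h2 hcomL
    have hxS : ((⟨x, hx'⟩ : Nv) : G) ∈ S := hx
    have hyS : ((⟨y, hy'⟩ : Nv) : G) ∈ S := hy
    have h3 : ρ (s' r hr (a * a) hbA) * ((1 - ρ Q') * ρ P' * (ρ ⟨x, hx'⟩ - 1) *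
        (ρ ⟨y, hy'⟩ - 1)) = 0 := by
      rw [← h2, ← mul_assoc, hcomL _ (hsr _ hbA), mul_assoc _ (ρ (s' r hr (a * a) hbA)),
        mul_sub (ρ (s' r hr (a * a) hbA)), mul_one]
    have h4 := (haUnit (s' r hr (a * a) hbA)).mul_right_eq_zero.mp h3
    have c1 : Commute (1 - ρ Q') (ρ P') :=
      (Commute.one_left _).sub_left (hcomm _ _ hQS hPS)
    have c2 : Commute (1 - ρ Q') ((ρ ⟨x, hx'⟩ - 1) * (ρ ⟨y, hy'⟩ - 1)) :=
      (((Commute.one_left _).sub_left (hcomm _ _ hQS hxS)).sub_right (Commute.one_right _)).mul_right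
        (((Commute.one_left _).sub_left (hcomm _ _ hQS hyS)).sub_right (Commute.one_right _))
    rw [c1.eq, mul_assoc (ρ P'), mul_assoc (ρ P'), mul_assoc (1 - ρ Q')] at h4
    have h5 := (haUnit P').mul_right_eq_zero.mp h4
    rwa [c2.eq, mul_assoc] at h5
  -- no nontrivial element of `V` is centralised by `S`
  have hVC : ∀ z : Additive V, (∀ x ∈ S, ∀ hx' : x ∈ Nv, ρ ⟨x, hx'⟩ z = z) → z = 0 := by
    intro z hz
    let z' : V := Additive.toMul z
    have hzc : (z' : G) ∈ centralizer (X : Set G) := by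
      have hle : X ≤ centralizer {(z' : G)} := by
        refine hXle (fun v hv => mem_centralizer_iff.mpr ?_) (fun x hx => mem_centralizer_iff.mpr ?_)
        · rintro _ rfl
          exact congrArg Subtype.val (mul_comm' z' (⟨v, hv⟩ : V))
        · rintro _ rfl
          have := congrArg (fun i : Additive V => ((Additive.toMul i : V) : G)) (hz x hx (hSN hx))
          change x * (z' : G) * x⁻¹ = (z' : G) at this
          exact (mul_inv_eq_iff_eq_mul.mp this).symm
      exact mem_centralizer_iff.mpr fun x hx => (mem_centralizer_iff.mp (hle hx) _ rfl).symm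
    rcases hmin (V ⊓ centralizer (X : Set G)) inf_le_left
      (le_normalizer_inf hXV (le_normalizer.trans (Coprime.normalizer_le_normalizer_centralizer X)))
      (le_normalizer_inf hAV (h.norm.trans (Coprime.normalizer_le_normalizer_centralizer X))) with
      h0 | h0
    · have : (z' : G) ∈ V ⊓ centralizer (X : Set G) := ⟨z'.2, hzc⟩
      rw [h0, mem_bot] at this
      exact congrArg Additive.ofMul (Subtype.ext this : z' = 1)
    · exact absurd (h0 ▸ inf_le_right) hnc
  have hQ1 : ∀ v : Additive V, ρ Q' v = v := by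
    intro v
    have h1 : v - ρ Q' v = 0 := by
      refine hVC _ fun x hx hx' => ?_
      rw [← sub_eq_zero]
      refine hVC _ fun y hy hy' => ?_
      rw [← sub_eq_zero]
      exact DFunLike.congr_fun (key y hy x hx hy' hx') v
    exact (sub_eq_zero.mp h1).symm
  have hKer : S ⊓ centralizer (V : Set G) = ⊥ := by
    refine le_bot_iff.mp (hM ▸ hleM _ inf_le_left (fun h0 => hnc ?_)
      (le_normalizer_inf hAS (hAV.trans (Coprime.normalizer_le_normalizer_centralizer V))))
    refine le_centralizer_iff.mp (hXle ?_ (h0.symm.le.trans inf_le_right))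
    exact le_centralizer_iff_isMulCommutative.mpr inferInstance
  have hQone : (Q' : G) = 1 := by
    refine mem_bot.mp (hKer ▸ ⟨hQS, ?_⟩)
    show (Q' : G) ∈ centralizer (V : Set G)
    rw [mem_centralizer_iff]
    intro v hv
    have := congrArg (fun i : Additive V => ((Additive.toMul i : V) : G))
      (hQ1 (Additive.ofMul ⟨v, hv⟩))
    change (Q' : G) * v * (Q' : G)⁻¹ = v at this
    exact (mul_inv_eq_iff_eq_mul.mp this).symm
  have hu1 : u = 1 := by
    refine hfixS (a * a) hbA ha2 u huS ?_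
    change u⁻¹ * (a * a) * u * (a * a)⁻¹ = 1 at hQone
    rw [mul_inv_eq_one, mul_assoc u⁻¹, inv_mul_eq_iff_eq_mul] at hQone
    exact hQone
  refine hSne (hu ▸ le_bot_iff.mp ?_)
  rw [hu1]
  exact cl_le (by rw [normalizer_eq_top]; exact le_top) (one_mem _)

end Cfsg.Agent.Lib.FixedGen
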